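import Mathlib
import Cfsg.Agent.H797.EP.Psi

/-!
# The common constituent `beta` of `piL` and `Psi`

`exists_beta`; `beta_coset` : sums of `beta` over cosets of subgroups containing enough transvections vanish;
`beta_one` : `beta g = 1` if `g` fixes `lagW` and commutes with no non-trivial element of the Siegel radical.
-/

set_option autoImplicit false
set_option linter.unusedSectionVars false

open scoped Pointwise Matrix ComplexConjugate
open Matrix Module Cfsg Cfsg.Agent.Characters.Core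

namespace Cfsg.Agent.H797.EP

open Cfsg.Agent.H352.EP

variable {n : ℕ}

theorem classInner_natCast {G : Type*} [Group G] [Fintype G] {φ ψ : G → ℂ} (hφ : IsCharacter G φ)
    (hψ : IsCharacter G ψ) : ∃ k : ℕ, classInner φ ψ = k := classInner_isNat hφ hψ

/-- unique common constituent of two characters of inner product one -/
theorem exists_common {G : Type*} [Group G] [Fintype G] {φ ψ : G → ℂ} (hφ : IsCharacter G φ)
    (hψ : IsCharacter G ψ) (h : classInner φ ψ = 1) :
    ∃ β : IrrCharacter G, classInner φ (β : G → ℂ) = 1 ∧ classInner ψ (β : G → ℂ) = 1 ∧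
      ∀ χ : IrrCharacter G, classInner φ (χ : G → ℂ) ≠ 0 → classInner ψ (χ : G → ℂ) ≠ 0 → χ = β := by
  classical
  have : Finite (IrrCharacter G) := finite_irr
  have := Fintype.ofFinite (IrrCharacter G)
  have ha : ∀ χ : IrrCharacter G, ∃ a : ℕ, classInner φ (χ : G → ℂ) = a := fun χ =>
    classInner_isNat hφ (isIrr_isCharacter χ.2)
  have hb : ∀ χ : IrrCharacter G, ∃ a : ℕ, classInner ψ (χ : G → ℂ) = a := fun χ =>
    classInner_isNat hψ (isIrr_isCharacter χ.2)
  choose a ha using ha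
  choose b hb using hb
  have h1 : ∑ χ : IrrCharacter G, a χ * b χ = 1 := by
    have h2 := classInner_eq_sum (isCharacter_isClassFunction hφ) (isCharacter_isClassFunction hψ)
    rw [h] at h2
    have h3 : ((∑ χ : IrrCharacter G, a χ * b χ : ℕ) : ℂ) = 1 := by
      rw [h2]
      push_cast
      refine Finset.sum_congr rfl fun χ _ => ?_
      rw [ha, hb, map_natCast]
    exact_mod_cast h3
  obtain ⟨β, -, hβ⟩ : ∃ β ∈ (Finset.univ : Finset (IrrCharacter G)), a β * b β ≠ 0 := by
    by_contra hcon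
    push Not at hcon
    rw [Finset.sum_eq_zero hcon] at h1
    exact zero_ne_one h1
  have h4 := Finset.add_sum_erase Finset.univ (fun χ => a χ * b χ) (Finset.mem_univ β)
  have h5 : 1 ≤ a β * b β := Nat.pos_of_ne_zero hβ
  have h6 : a β * b β = 1 := by omega
  have h7 : ∑ χ ∈ Finset.univ.erase β, a χ * b χ = 0 := by omega
  refine ⟨β, ?_, ?_, fun χ hχ hχ' => ?_⟩
  · rw [ha, Nat.eq_one_of_mul_eq_one_right h6, Nat.cast_one]
  · rw [hb, Nat.eq_one_of_mul_eq_one_left h6, Nat.cast_one]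
  · by_contra hne
    have h8 := (Finset.sum_eq_zero_iff.1 h7) χ (Finset.mem_erase.2 ⟨hne, Finset.mem_univ _⟩)
    rcases mul_eq_zero.1 h8 with h9 | h9
    · exact hχ (by rw [ha, h9, Nat.cast_zero])
    · exact hχ' (by rw [hb, h9, Nat.cast_zero])

/-- the properties of `beta` -/
structure IsBeta (β : IrrCharacter (Sp n)) : Prop where
  piL : classInner (piL n) (β : Sp n → ℂ) = 1
  psi : classInner (Psi (n := n)) (β : Sp n → ℂ) = 1
  uniq : ∀ χ : IrrCharacter (Sp n), classInner (Cfsg.Agent.H352.EP.piL n) (χ : Sp n → ℂ) ≠ 0 →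
    classInner (Psi (n := n)) (χ : Sp n → ℂ) ≠ 0 → χ = β

theorem exists_beta : ∃ β : IrrCharacter (Sp n), IsBeta β := by
  obtain ⟨β, h1, h2, h3⟩ := exists_common isCharacter_piL isCharacter_Psi (classInner_piL_psi (n := n))
  exact ⟨β, h1, h2, h3⟩

theorem IsBeta.ne_one (hn : 0 < n) {β : IrrCharacter (Sp n)} (h : IsBeta β) : (β : Sp n → ℂ) ≠ 1 := by
  intro h1
  have h2 := h.psi
  rw [h1, classInner_psi_one hn] at h2
  exact zero_ne_one h2

theorem psi_real (g : Sp n) : conj (Psi g) = Psi g := by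
  unfold Psi Op
  rw [map_mul, map_natCast]
  rcases dk_sq g with h1 | h1 <;> rw [h1] <;> simp

/-- sums of `beta` over cosets -/
theorem beta_coset {β : IrrCharacter (Sp n)} (hβ : IsBeta β) {H : Type*} [Group H] [Fintype H] (i : H →* Sp n)
    (hY : ∀ θ : QP n, ∃ h : H, i h • θ = θ ∧ dk (i h) = -1) (g : Sp n) :
    ∑ h : H, (β : Sp n → ℂ) (g * i h) = 0 := by
  have h1 : classInner (fun h => Psi (i h)) (fun h => (((1 : H →* ℂˣ) h : ℂˣ) : ℂ)) = 0 := by
    rw [classInner_def]
    have h2 : ∑ h : H, Psi (i h) * conj ((((1 : H →* ℂˣ) h : ℂˣ) : ℂ)) = ∑ h : H, Psi (i h) :=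
      Finset.sum_congr rfl fun h _ => by simp
    rw [h2, psi_sum_zero i hY, mul_zero]
  have h3 := mult_zero i isCharacter_Psi (Cfsg.Agent.CharDeep.LinearChar.isCharacter_of_hom (1 : H →* ℂˣ)) h1 β
    (by rw [hβ.psi]; exact one_ne_zero)
  rw [classInner_def] at h3
  have h4 : ∑ h : H, (((1 : H →* ℂˣ) h : ℂ))⁻¹ * (β : Sp n → ℂ) (i h) = 0 := by
    have h5 := (mul_eq_zero.1 h3).resolve_left (inv_ne_zero card_ne_zero_complex)
    rw [← h5]
    exact Finset.sum_congr rfl fun h _ => by simp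
  have h5 := sum_mul_zero i (1 : H →* ℂˣ) (isIrr_isCharacter β.2) h4 g
  rw [← h5]
  refine Finset.sum_congr rfl fun h _ => ?_
  have h6 := isIrr_isClassFunction β.2 (i h * g) g
  have h7 : g * (i h * g) * g⁻¹ = g * i h := by group
  rw [h7] at h6
  rw [h6]
  simp

/-! ### The Siegel radical -/

theorem tv_eq_qel (a : Fin n → ZMod 2) : ∃ s : Sym n, tv ((a, 0) : Vv n) = qel (Multiplicative.ofAdd s) := by
  refine ⟨⟨Matrix.vecMulVec a a, ?_⟩, ?_⟩
  · show (Matrix.vecMulVec a a)ᵀ = Matrix.vecMulVec a a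
    ext i j
    simp only [Matrix.transpose_apply, Matrix.vecMulVec_apply]
    ring
  · refine Subtype.ext (LinearEquiv.ext fun v => ?_)
    show v + form v (a, 0) • ((a, 0) : Vv n) = (v.1 + Matrix.vecMulVec a a *ᵥ v.2, v.2)
    have h1 : form v (a, 0) = a ⬝ᵥ v.2 := by
      simp only [form, dotProduct_zero, zero_add]
      exact dotProduct_comm _ _
    refine Prod.ext ?_ ?_
    · show v.1 + form v (a, 0) • a = v.1 + Matrix.vecMulVec a a *ᵥ v.2
      rw [h1]
      congr 1
      funext i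
      simp only [Matrix.mulVec, Matrix.vecMulVec_apply, Pi.smul_apply, smul_eq_mul, dotProduct, Finset.sum_mul]
      refine Finset.sum_congr rfl fun j _ => ?_
      ring
    · show v.2 + form v (a, 0) • (0 : Fin n → ZMod 2) = v.2
      rw [smul_zero, add_zero]

theorem qel_lagW (s : Multiplicative (Sym n)) : qel s • lagW n = lagW n := by
  apply Lag.ext
  ext v
  have h1 : v ∈ (qel s • lagW n).1 ↔ (qel s)⁻¹ • v ∈ (lagW n).1 := mem_act _ _ _
  rw [h1, mem_lagW, mem_lagW, ← map_inv]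
  rfl

/-- the average of `Psi` over the Siegel radical -/
theorem sum_psi_qel [Fintype (Multiplicative (Sym n))] :
    ∑ s : Multiplicative (Sym n), Psi (qel s) = Nat.card (Multiplicative (Sym n)) := by
  refine sum_twist_one (Ω := QP n) qel (fun s => dk (qel s))
    (fun θ f g hf hg => by rw [map_mul]; exact dk_mul' θ hf hg) (q0 n) fun θ => ?_
  constructor
  · intro h
    have h1 : ∀ v ∈ (lagW n).1, θ.1 v = 0 := by
      intro v hv
      by_contra hne
      have h2 : θ.1 v = 1 := (z2 _).resolve_left hne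
      rw [mem_lagW] at hv
      obtain ⟨s, hs⟩ := tv_eq_qel v.1
      have hv' : ((v.1, 0) : Vv n) = v := Prod.ext rfl hv.symm
      rw [hv'] at hs
      have h4 := h (Multiplicative.ofAdd s) (by rw [← hs]; exact tv_smul_of_one θ h2)
      rw [← hs, dk_tv (ne_zero_of_one θ.2.1 h2)] at h4
      norm_num at h4
    obtain ⟨w, hw⟩ := exists_shift th0_qf θ.2.1
    have hwW : w ∈ (lagW n).1 := by
      rw [lag_mem_iff]
      intro u hu
      have := hw u
      rw [h1 u hu, th0_lagW u hu, zero_add] at this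
      rw [form_comm]
      exact this.symm
    -- `θ = qel (diagonal w.1) th0`
    have hsym : (Matrix.diagonal w.1 : Matrix (Fin n) (Fin n) (ZMod 2)) ∈ Sym n := Matrix.diagonal_transpose _
    refine ⟨Multiplicative.ofAdd ⟨_, hsym⟩, Subtype.ext (funext fun v => ?_)⟩
    have e1 : (qel (Multiplicative.ofAdd (⟨_, hsym⟩ : Sym n)) • q0 n).1 v =
        th0 ((qel (Multiplicative.ofAdd (⟨_, hsym⟩ : Sym n)))⁻¹ • v) := rfl
    have e2 : (qel (Multiplicative.ofAdd (⟨_, hsym⟩ : Sym n)))⁻¹ • v =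
        (v.1 + (-(Matrix.diagonal w.1)) *ᵥ v.2, v.2) := by
      rw [← map_inv]
      rfl
    rw [mem_lagW] at hwW
    rw [e1, e2, hw, th0, th0, form, hwW, zero_dotProduct, add_zero, add_dotProduct]
    congr 1
    rw [Matrix.neg_mulVec, neg_dotProduct]
    have e3 : (Matrix.diagonal w.1 *ᵥ v.2) ⬝ᵥ v.2 = w.1 ⬝ᵥ v.2 := by
      simp only [dotProduct, Matrix.mulVec_diagonal]
      refine Finset.sum_congr rfl fun i _ => ?_
      rcases z2 (v.2 i) with h2 | h2 <;> rw [h2] <;> simp
    rw [e3]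
    exact ZMod.neg_eq_self_mod_two _
  · rintro ⟨t, hθ⟩ s hs
    have h1 : ∀ v ∈ (lagW n).1, θ.1 v = 0 := by
      intro v hv
      have e1 : θ.1 v = th0 ((qel t)⁻¹ • v) := by rw [← hθ]; rfl
      rw [e1]
      apply th0_lagW
      have e2 : v ∈ (qel t • lagW n).1 := by rw [qel_lagW]; exact hv
      exact (mem_act _ _ _).1 e2
    exact dk_lag θ.2.1 (congrArg Subtype.val hs) h1 (qel_lagW s)

theorem avg_eq {G H K : Type*} [Group G] [Group H] [Fintype H] [Group K] [Fintype K] (i : H →* G) (j : K →* G)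
    (hij : ∀ h, ∃ k, j k = i h) {χ : G → ℂ} (hχ : IsCharacter G χ) {a : ℕ} (ha : a ≤ 1)
    (hH : ∑ h : H, χ (i h) = a * Nat.card H) (hK : ∑ k : K, χ (j k) = Nat.card K) (k : K) :
    ∑ h : H, χ (i h * j k) = Nat.card H := by
  obtain ⟨n, ρ, rfl⟩ := hχ
  have hcH : (Nat.card H : ℂ) ≠ 0 := by exact_mod_cast Nat.card_pos.ne'
  have hcK : (Nat.card K : ℂ) ≠ 0 := by exact_mod_cast Nat.card_pos.ne'
  set A : Module.End ℂ (Fin n → ℂ) := (Nat.card H : ℂ)⁻¹ • ∑ h : H, ρ (i h) with hA
  set B : Module.End ℂ (Fin n → ℂ) := (Nat.card K : ℂ)⁻¹ • ∑ k : K, ρ (j k) with hB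
  have h1 : ∀ k, ρ (j k) * B = B := by
    intro k
    rw [hB, mul_smul_comm, Finset.mul_sum]
    congr 1
    refine Fintype.sum_equiv (Equiv.mulLeft k) _ _ fun h => ?_
    rw [← map_mul, ← map_mul]
    rfl
  have h1' : ∀ k, B * ρ (j k) = B := by
    intro k
    rw [hB, smul_mul_assoc, Finset.sum_mul]
    congr 1
    refine Fintype.sum_equiv (Equiv.mulRight k) _ _ fun h => ?_
    rw [← map_mul, ← map_mul]
    rfl
  have h2 : ∀ h, ρ (i h) * A = A := by
    intro k
    rw [hA, mul_smul_comm, Finset.mul_sum]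
    congr 1
    refine Fintype.sum_equiv (Equiv.mulLeft k) _ _ fun h => ?_
    rw [← map_mul, ← map_mul]
    rfl
  have hAA : A * A = A := by
    conv_lhs => rw [hA, smul_mul_assoc, Finset.sum_mul]
    rw [← hA, Finset.sum_congr rfl fun h _ => h2 h, Finset.sum_const, Finset.card_univ,
      ← Nat.card_eq_fintype_card, ← Nat.cast_smul_eq_nsmul ℂ, smul_smul, inv_mul_cancel₀ hcH, one_smul]
  have hBB : B * B = B := by
    conv_lhs => rw [hB, smul_mul_assoc, Finset.sum_mul]
    rw [← hB, Finset.sum_congr rfl fun h _ => h1 h, Finset.sum_const, Finset.card_univ,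
      ← Nat.card_eq_fintype_card, ← Nat.cast_smul_eq_nsmul ℂ, smul_smul, inv_mul_cancel₀ hcK, one_smul]
  have hAB : A * B = B := by
    conv_lhs => rw [hA, smul_mul_assoc, Finset.sum_mul]
    rw [Finset.sum_congr rfl fun h _ => (by obtain ⟨k, hk⟩ := hij h; rw [← hk]; exact h1 k :
      ρ (i h) * B = B), Finset.sum_const, Finset.card_univ,
      ← Nat.card_eq_fintype_card, ← Nat.cast_smul_eq_nsmul ℂ, smul_smul, inv_mul_cancel₀ hcH, one_smul]
  have hBA : B * A = B := by
    conv_lhs => rw [hA, mul_smul_comm, Finset.mul_sum]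
    rw [Finset.sum_congr rfl fun h _ => (by obtain ⟨k, hk⟩ := hij h; rw [← hk]; exact h1' k :
      B * ρ (i h) = B), Finset.sum_const, Finset.card_univ,
      ← Nat.card_eq_fintype_card, ← Nat.cast_smul_eq_nsmul ℂ, smul_smul, inv_mul_cancel₀ hcH, one_smul]
  have htA : LinearMap.trace ℂ (Fin n → ℂ) A = a := by
    have : LinearMap.trace ℂ (Fin n → ℂ) A = (Nat.card H : ℂ)⁻¹ * ∑ h : H, ρ.character (i h) := by
      rw [hA, map_smul, map_sum, smul_eq_mul]
      rfl
    rw [this, hH]
    field_simp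
  have htB : LinearMap.trace ℂ (Fin n → ℂ) B = 1 := by
    have : LinearMap.trace ℂ (Fin n → ℂ) B = (Nat.card K : ℂ)⁻¹ * ∑ h : K, ρ.character (j h) := by
      rw [hB, map_smul, map_sum, smul_eq_mul]
      rfl
    rw [this, hK, inv_mul_cancel₀ hcK]
  have hid : IsIdempotentElem (A - B) := by
    show (A - B) * (A - B) = A - B
    rw [mul_sub, sub_mul, sub_mul, hAA, hBA, hAB, hBB, sub_self, sub_zero]
  have htr : LinearMap.trace ℂ (Fin n → ℂ) (A - B) =
      (Module.finrank ℂ (LinearMap.range (A - B)) : ℂ) :=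
    (LinearMap.IsIdempotentElem.isProj_range (A - B) hid).trace
  rw [map_sub, htA, htB] at htr
  have h5 : (a : ℂ) = ((Module.finrank ℂ (LinearMap.range (A - B)) + 1 : ℕ) : ℂ) := by
    push_cast
    linear_combination htr
  have h6 : a = Module.finrank ℂ (LinearMap.range (A - B)) + 1 := by exact_mod_cast h5
  have h7 : LinearMap.trace ℂ (Fin n → ℂ) (A - B) = 0 := by
    rw [map_sub, htA, htB]
    have : a = 1 := by omega
    rw [this, Nat.cast_one, sub_self]
  have h8 : A - B = 0 := LinearMap.IsIdempotentElem.eq_zero_of_trace_eq_zero hid h7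
  have h9 : A = B := sub_eq_zero.1 h8
  have h10 : LinearMap.trace ℂ (Fin n → ℂ) (A * ρ (j k)) = 1 := by
    rw [h9, h1', htB]
  have h11 : LinearMap.trace ℂ (Fin n → ℂ) (A * ρ (j k)) =
      (Nat.card H : ℂ)⁻¹ * ∑ h : H, ρ.character (i h * j k) := by
    rw [hA, smul_mul_assoc, Finset.sum_mul, map_smul, map_sum, smul_eq_mul]
    congr 1
    refine Finset.sum_congr rfl fun h _ => ?_
    rw [← map_mul]
    rfl
  rw [h10] at h11
  field_simp at h11
  exact h11.symm

/-- the elements fixing `lagW` pointwise -/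
theorem exists_qel {y : Sp n} (hy : ∀ v ∈ (lagW n).1, y • v = v) : ∃ s : Multiplicative (Sym n), y = qel s := by
  have h1 : ∀ u : Vv n, (y • u).2 = u.2 := by
    intro u
    have h2 : y • u + u ∈ (lagW n).1 := by
      rw [lag_mem_iff]
      intro v hv
      rw [form_add_right]
      have h3 := form_smul y v u
      rw [hy v hv] at h3
      rw [h3, z2add]
    rw [mem_lagW] at h2
    have h3 : (y • u).2 + u.2 = 0 := h2
    calc (y • u).2 = (y • u).2 + u.2 + u.2 := by rw [add_assoc, vadd_self, add_zero]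
      _ = u.2 := by rw [h3, zero_add]
  let φ : (Fin n → ZMod 2) →ₗ[ZMod 2] (Fin n → ZMod 2) :=
    (LinearMap.fst _ _ _) ∘ₗ ((y : Vv n ≃ₗ[ZMod 2] Vv n) : Vv n →ₗ[ZMod 2] Vv n) ∘ₗ (LinearMap.inr _ _ _)
  have hφ : ∀ b, y • ((0, b) : Vv n) = (φ b, b) := fun b => Prod.ext rfl (h1 _)
  have hφs : ∀ b b', φ b ⬝ᵥ b' + b ⬝ᵥ φ b' = 0 := by
    intro b b'
    have h2 := form_smul y (0, b) (0, b')
    rw [hφ, hφ] at h2
    simpa [form] using h2
  have hM : ∀ b, LinearMap.toMatrix' φ *ᵥ b = φ b := fun b => LinearMap.toMatrix'_mulVec φ b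
  have hsym : LinearMap.toMatrix' φ ∈ Sym n := by
    show (LinearMap.toMatrix' φ)ᵀ = LinearMap.toMatrix' φ
    ext i j
    have h2 := hφs (Pi.single i 1) (Pi.single j 1)
    rw [← hM, ← hM] at h2
    simp only [Matrix.mulVec_single_one, dotProduct_single_one, single_one_dotProduct, Matrix.col_apply] at h2
    rw [Matrix.transpose_apply]
    have h3 := z2add (LinearMap.toMatrix' φ i j)
    linear_combination h2 - h3
  refine ⟨Multiplicative.ofAdd ⟨_, hsym⟩, ?_⟩
  refine Subtype.ext (LinearEquiv.ext fun v => ?_)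
  show y • v = (v.1 + LinearMap.toMatrix' φ *ᵥ v.2, v.2)
  have h2 : v = (v.1, 0) + (0, v.2) := by simp
  conv_lhs => rw [h2]
  rw [smul_add, hφ, hy _ ((mem_lagW _).2 rfl), hM]
  simp

theorem qel_injective : Function.Injective (qel (n := n)) := by
  intro s t h
  have h1 : ∀ b : Fin n → ZMod 2, ((s.toAdd : Sym n) : Matrix (Fin n) (Fin n) (ZMod 2)) *ᵥ b =
      ((t.toAdd : Sym n) : Matrix (Fin n) (Fin n) (ZMod 2)) *ᵥ b := by
    intro b
    have h2 : qel s • ((0, b) : Vv n) = qel t • ((0, b) : Vv n) := by rw [h]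
    rw [qel_smul, qel_smul] at h2
    have h3 := congrArg Prod.fst h2
    simpa using h3
  have h2 : ((s.toAdd : Sym n) : Matrix (Fin n) (Fin n) (ZMod 2)) =
      ((t.toAdd : Sym n) : Matrix (Fin n) (Fin n) (ZMod 2)) := by
    ext i j
    have := congrFun (h1 (Pi.single j 1)) i
    simpa using this
  exact Multiplicative.toAdd.injective (Subtype.ext h2)

instance : Finite (Multiplicative (Sym n)) := inferInstanceAs (Finite (Sym n))

/-- **`beta g = 1`** -/
theorem beta_one {β : IrrCharacter (Sp n)} (hβ : IsBeta β) {g : Sp n} (hg : g • lagW n = lagW n)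
    (hc : ∀ s : Multiplicative (Sym n), qel s * g = g * qel s → s = 1) : (β : Sp n → ℂ) g = 1 := by
  classical
  have := Fintype.ofFinite (Multiplicative (Sym n))
  have := Fintype.ofFinite (MulAction.stabilizer (Sp n) (lagW n))
  have hcQ : (Nat.card (Multiplicative (Sym n)) : ℂ) ≠ 0 := by exact_mod_cast Nat.card_pos.ne'
  -- the multiplicity of the trivial character of `Q`
  have h1 : classInner (fun s => Psi (qel s)) (fun s => (((1 : Multiplicative (Sym n) →* ℂˣ) s : ℂˣ) : ℂ)) =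
      (1 : ℕ) := by
    rw [classInner_def]
    have h2 : ∑ s : Multiplicative (Sym n), Psi (qel s) * conj ((((1 : Multiplicative (Sym n) →* ℂˣ) s : ℂˣ) : ℂ)) =
        ∑ s : Multiplicative (Sym n), Psi (qel s) :=
      Finset.sum_congr rfl fun h _ => by simp
    rw [h2, sum_psi_qel, inv_mul_cancel₀ hcQ, Nat.cast_one]
  obtain ⟨a, ha, ha'⟩ := mult_le qel isCharacter_Psi
    (Cfsg.Agent.CharDeep.LinearChar.isCharacter_of_hom (1 : Multiplicative (Sym n) →* ℂˣ)) h1 β
    (by rw [hβ.psi]; exact one_ne_zero)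
  have hH : ∑ s : Multiplicative (Sym n), (β : Sp n → ℂ) (qel s) = a * Nat.card (Multiplicative (Sym n)) := by
    rw [classInner_def] at ha'
    have h2 : ∑ s : Multiplicative (Sym n),
        (β : Sp n → ℂ) (qel s) * conj ((((1 : Multiplicative (Sym n) →* ℂˣ) s : ℂˣ) : ℂ)) =
        ∑ s : Multiplicative (Sym n), (β : Sp n → ℂ) (qel s) :=
      Finset.sum_congr rfl fun h _ => by simp
    rw [h2] at ha'
    rw [← ha']
    field_simp
  have hK : ∑ k : MulAction.stabilizer (Sp n) (lagW n), (β : Sp n → ℂ) (k : Sp n) =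
      Nat.card (MulAction.stabilizer (Sp n) (lagW n)) := by
    have h3 := hβ.piL
    have h4 : (piL n) = indFun (MulAction.stabilizer (Sp n) (lagW n)) (fun _ => 1) :=
      Cfsg.Agent.S0190.result (Lag n) (lagW n)
    rw [h4, Cfsg.Agent.Characters.Brauer.classInner_indFun _ _ _ _ (isIrr_isClassFunction β.2),
      classInner_def] at h3
    have hc0 : (Nat.card (MulAction.stabilizer (Sp n) (lagW n)) : ℂ) ≠ 0 := card_ne_zero_complex
    have h5 : ∑ k : MulAction.stabilizer (Sp n) (lagW n), (1 : ℂ) * conj ((β : Sp n → ℂ) (k : Sp n)) =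
        Nat.card (MulAction.stabilizer (Sp n) (lagW n)) := by
      field_simp at h3
      rw [← h3]
      exact Finset.sum_congr rfl fun k _ => one_mul _
    have h6 := congrArg conj h5
    rw [map_sum, map_natCast] at h6
    rw [← h6]
    refine Finset.sum_congr rfl fun k _ => ?_
    rw [one_mul, Complex.conj_conj]
  have h2 := avg_eq qel (MulAction.stabilizer (Sp n) (lagW n)).subtype
    (fun s => ⟨⟨qel s, qel_lagW s⟩, rfl⟩) (isIrr_isCharacter β.2) ha hH hK ⟨g, hg⟩
  have h3 : ∑ s : Multiplicative (Sym n), (β : Sp n → ℂ) (qel s * g) = Nat.card (Multiplicative (Sym n)) := h2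
  -- all `qel s * g` are conjugate to `g`
  have hex : ∀ t : Multiplicative (Sym n), ∃ s, qel t * g * (qel t)⁻¹ * g⁻¹ = qel s := by
    intro t
    apply exists_qel
    intro v hv
    have e1 : g⁻¹ • v ∈ (lagW n).1 := by
      have h4 : v ∈ (g • lagW n).1 := by rw [hg]; exact hv
      exact (mem_act _ _ _).1 h4
    have e2 : ∀ (s : Multiplicative (Sym n)) (u : Vv n), u ∈ (lagW n).1 → qel s • u = u := by
      intro s u hu
      rw [mem_lagW] at hu
      rw [qel_smul, hu, Matrix.mulVec_zero, add_zero]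
      exact Prod.ext rfl hu.symm
    rw [mul_smul, mul_smul, ← map_inv, e2 _ _ e1, mul_smul, smul_inv_smul, e2 _ _ hv]
  choose σ hσ using hex
  have hinj : Function.Injective σ := by
    intro t t' h
    have h4 : qel t * g * (qel t)⁻¹ * g⁻¹ = qel t' * g * (qel t')⁻¹ * g⁻¹ := by rw [hσ, hσ, h]
    have h5 : qel t * g * (qel t)⁻¹ = qel t' * g * (qel t')⁻¹ := mul_right_cancel h4
    have h6 : qel (t'⁻¹ * t) * g = g * qel (t'⁻¹ * t) := by
      rw [map_mul, map_inv]
      calc (qel t')⁻¹ * qel t * g = (qel t')⁻¹ * (qel t * g * (qel t)⁻¹) * qel t := by group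
        _ = (qel t')⁻¹ * (qel t' * g * (qel t')⁻¹) * qel t := by rw [h5]
        _ = g * ((qel t')⁻¹ * qel t) := by group
    exact (inv_mul_eq_one.1 (hc _ h6)).symm
  have hbij : Function.Bijective σ := hinj.bijective_of_finite
  have h7 : ∑ s : Multiplicative (Sym n), (β : Sp n → ℂ) (qel s * g) =
      ∑ t : Multiplicative (Sym n), (β : Sp n → ℂ) g := by
    rw [← (Equiv.ofBijective σ hbij).sum_comp fun s => (β : Sp n → ℂ) (qel s * g)]
    refine Finset.sum_congr rfl fun t _ => ?_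
    have e1 : qel ((Equiv.ofBijective σ hbij) t) * g = qel t * g * (qel t)⁻¹ := by
      show qel (σ t) * g = _
      rw [← hσ t]
      group
    rw [e1]
    exact isIrr_isClassFunction β.2 g (qel t)
  rw [h3, Finset.sum_const, Finset.card_univ, ← Nat.card_eq_fintype_card, nsmul_eq_mul] at h7
  have h8 : (Nat.card (Multiplicative (Sym n)) : ℂ) * ((β : Sp n → ℂ) g - 1) = 0 := by
    rw [mul_sub, ← h7, mul_one, sub_self]
  exact sub_eq_zero.1 ((mul_eq_zero.1 h8).resolve_left hcQ)

end Cfsg.Agent.H797.EP
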