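import Mathlib
import Cfsg.Agent.Characters.Core
import Cfsg.Agent.Characters.Brauer

/-!
# Twisted orbit counting and projections of characters

* `sum_twist` : `∑ h, κ h * #Fix h` for a function `κ` which is multiplicative on point stabilisers;
* `sum_mul_zero` : if the multiplicity of a linear character of `H` in `χ` vanishes, then
  `∑ h, lam h⁻¹ χ(h g) = 0` for all `g`;
* `mult_zero` : multiplicities vanish for constituents.
-/

set_option autoImplicit false

open scoped ComplexConjugate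
open Cfsg Cfsg.Agent.Characters.Core

namespace Cfsg.Agent.H797.EP

section

variable {G H : Type*} [Group G] [Group H] [Fintype H]

open scoped Classical in
theorem sum_stab {Ω : Type*} [MulAction G Ω] (i : H →* G) (κ : H → ℂ) (θ : Ω)
    (hκ : ∀ f g : H, i f • θ = θ → i g • θ = θ → κ (f * g) = κ f * κ g) :
    ∑ h : H, (if i h • θ = θ then κ h else 0) =
      if (∀ h : H, i h • θ = θ → κ h = 1) then (Nat.card {h : H // i h • θ = θ} : ℂ) else 0 := by
  split_ifs with h
  · rw [← Finset.sum_filter, Finset.sum_congr rfl (g := fun _ => (1 : ℂ)) (fun x hx => h x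
      (Finset.mem_filter.1 hx).2), Finset.sum_const, nsmul_eq_mul, mul_one, Nat.card_eq_fintype_card,
      Fintype.card_subtype]
  · push Not at h
    obtain ⟨h0, hh0, hne⟩ := h
    have h1 : ∑ h : H, (if i h • θ = θ then κ h else 0) =
        κ h0 * ∑ h : H, (if i h • θ = θ then κ h else 0) := by
      rw [Finset.mul_sum]
      symm
      refine Fintype.sum_equiv (Equiv.mulLeft h0) _ _ fun x => ?_
      show κ h0 * (if i x • θ = θ then κ x else 0) = if i (h0 * x) • θ = θ then κ (h0 * x) else 0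
      have h2 : i (h0 * x) • θ = θ ↔ i x • θ = θ := by
        rw [map_mul, mul_smul]
        constructor
        · intro h3
          have h4 : i h0 • (i x • θ) = i h0 • θ := by rw [h3, hh0]
          exact MulAction.injective _ h4
        · intro h3
          rw [h3, hh0]
      by_cases h3 : i x • θ = θ
      · rw [if_pos h3, if_pos (h2.2 h3), hκ _ _ hh0 h3]
      · rw [if_neg h3, if_neg (fun h4 => h3 (h2.1 h4)), mul_zero]
    have h2 : (1 - κ h0) * ∑ h : H, (if i h • θ = θ then κ h else 0) = 0 := by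
      linear_combination h1
    rcases mul_eq_zero.1 h2 with h3 | h3
    · exact absurd (sub_eq_zero.1 h3).symm hne
    · exact h3

open scoped Classical in
/-- **Twisted orbit counting.** -/
theorem sum_twist {Ω : Type*} [MulAction G Ω] [Fintype Ω] (i : H →* G) (κ : H → ℂ)
    (hκ : ∀ θ : Ω, ∀ f g : H, i f • θ = θ → i g • θ = θ → κ (f * g) = κ f * κ g) :
    ∑ h : H, κ h * (Nat.card (MulAction.fixedBy Ω (i h)) : ℂ) =
      ∑ θ : Ω, if (∀ h : H, i h • θ = θ → κ h = 1) then (Nat.card {h : H // i h • θ = θ} : ℂ) else 0 := by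
  have h1 : ∀ h : H, κ h * (Nat.card (MulAction.fixedBy Ω (i h)) : ℂ) =
      ∑ θ : Ω, if i h • θ = θ then κ h else 0 := by
    intro h
    rw [← Finset.sum_filter, Finset.sum_const, nsmul_eq_mul, mul_comm]
    congr 2
    rw [← Fintype.card_subtype, ← Nat.card_eq_fintype_card]
    rfl
  rw [Finset.sum_congr rfl fun h _ => h1 h, Finset.sum_comm]
  exact Finset.sum_congr rfl fun θ _ => sum_stab i κ θ (hκ θ)

theorem sum_twist_zero {Ω : Type*} [MulAction G Ω] [Finite Ω] (i : H →* G) (κ : H → ℂ)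
    (hκ : ∀ θ : Ω, ∀ f g : H, i f • θ = θ → i g • θ = θ → κ (f * g) = κ f * κ g)
    (h0 : ∀ θ : Ω, ∃ h : H, i h • θ = θ ∧ κ h ≠ 1) :
    ∑ h : H, κ h * (Nat.card (MulAction.fixedBy Ω (i h)) : ℂ) = 0 := by
  classical
  have := Fintype.ofFinite Ω
  rw [sum_twist i κ hκ]
  refine Finset.sum_eq_zero fun θ _ => if_neg ?_
  push Not
  exact h0 θ

theorem sum_twist_ne_zero {Ω : Type*} [MulAction G Ω] [Finite Ω] (i : H →* G) (κ : H → ℂ)
    (hκ : ∀ θ : Ω, ∀ f g : H, i f • θ = θ → i g • θ = θ → κ (f * g) = κ f * κ g) (θ : Ω)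
    (h0 : ∀ h : H, i h • θ = θ → κ h = 1) :
    ∑ h : H, κ h * (Nat.card (MulAction.fixedBy Ω (i h)) : ℂ) ≠ 0 := by
  classical
  have := Fintype.ofFinite Ω
  rw [sum_twist i κ hκ]
  have h1 : ∀ θ : Ω, (if (∀ h : H, i h • θ = θ → κ h = 1) then (Nat.card {h : H // i h • θ = θ} : ℂ) else 0) =
      ((if (∀ h : H, i h • θ = θ → κ h = 1) then Nat.card {h : H // i h • θ = θ} else 0 : ℕ) : ℂ) := by
    intro θ
    split_ifs <;> simp
  rw [Finset.sum_congr rfl fun θ _ => h1 θ, ← Nat.cast_sum, Nat.cast_ne_zero]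
  apply ne_of_gt
  refine Finset.sum_pos' (fun _ _ => Nat.zero_le _) ⟨θ, Finset.mem_univ _, ?_⟩
  rw [if_pos h0]
  have : Nonempty {h : H // i h • θ = θ} := ⟨⟨1, by rw [map_one, one_smul]⟩⟩
  exact Nat.card_pos

/-- if the points with trivial twist form one orbit -/
theorem sum_twist_one {Ω : Type*} [MulAction G Ω] [Finite Ω] (i : H →* G) (κ : H → ℂ)
    (hκ : ∀ θ : Ω, ∀ f g : H, i f • θ = θ → i g • θ = θ → κ (f * g) = κ f * κ g) (θ₀ : Ω)
    (h0 : ∀ θ : Ω, (∀ h : H, i h • θ = θ → κ h = 1) ↔ ∃ h : H, i h • θ₀ = θ) :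
    ∑ h : H, κ h * (Nat.card (MulAction.fixedBy Ω (i h)) : ℂ) = Nat.card H := by
  classical
  have := Fintype.ofFinite Ω
  rw [sum_twist i κ hκ]
  have h1 : ∀ θ : Ω, (if (∀ h : H, i h • θ = θ → κ h = 1) then (Nat.card {h : H // i h • θ = θ} : ℂ) else 0) =
      ((∑ h : H, if i h • θ₀ = θ then 1 else 0 : ℕ) : ℂ) := by
    intro θ
    by_cases h2 : ∃ h : H, i h • θ₀ = θ
    · rw [if_pos ((h0 θ).2 h2)]
      obtain ⟨t, rfl⟩ := h2
      congr 1
      rw [← Finset.sum_filter, Finset.sum_const, smul_eq_mul, mul_one, Nat.card_eq_fintype_card,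
        Fintype.card_subtype]
      refine Finset.card_bij' (fun x _ => x * t) (fun y _ => y * t⁻¹) ?_ ?_ ?_ ?_
      · intro x hx
        rw [Finset.mem_filter] at hx ⊢
        exact ⟨Finset.mem_univ _, by rw [map_mul, mul_smul]; exact hx.2⟩
      · intro y hy
        rw [Finset.mem_filter] at hy ⊢
        exact ⟨Finset.mem_univ _, by rw [map_mul, map_inv, mul_smul, inv_smul_smul]; exact hy.2⟩
      · intro x _
        simp
      · intro y _
        simp
    · rw [if_neg fun h3 => h2 ((h0 θ).1 h3)]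
      push Not at h2
      rw [Finset.sum_eq_zero fun h _ => if_neg (h2 h), Nat.cast_zero]
  rw [Finset.sum_congr rfl fun θ _ => h1 θ, ← Nat.cast_sum, Finset.sum_comm]
  congr 1
  simp

end

section

variable {G H : Type*} [Group G] [Group H] [Fintype H]

theorem sum_mul_zero (i : H →* G) (lam : H →* ℂˣ) {χ : G → ℂ} (hχ : IsCharacter G χ)
    (h0 : ∑ h : H, ((lam h : ℂ))⁻¹ * χ (i h) = 0) (g : G) : ∑ h : H, ((lam h : ℂ))⁻¹ * χ (i h * g) = 0 := by
  obtain ⟨n, ρ, rfl⟩ := hχ
  set E : Module.End ℂ (Fin n → ℂ) := ∑ h : H, ((lam h : ℂ))⁻¹ • ρ (i h) with hE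
  have hcard : (Nat.card H : ℂ) ≠ 0 := by exact_mod_cast Nat.card_pos.ne'
  have h1 : ∀ k : H, ((lam k : ℂ))⁻¹ • (ρ (i k) * E) = E := by
    intro k
    rw [hE, Finset.mul_sum, Finset.smul_sum]
    refine Fintype.sum_equiv (Equiv.mulLeft k) _ _ fun h => ?_
    show ((lam k : ℂ))⁻¹ • (ρ (i k) * ((lam h : ℂ))⁻¹ • ρ (i h)) = ((lam (k * h) : ℂ))⁻¹ • ρ (i (k * h))
    rw [mul_smul_comm, smul_smul, map_mul, map_mul, map_mul, Units.val_mul, mul_inv]
  have h2 : E * E = (Nat.card H : ℂ) • E := by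
    conv_lhs => rw [hE, Finset.sum_mul]
    rw [Finset.sum_congr rfl (g := fun _ => E) fun k _ => by rw [smul_mul_assoc]; exact h1 k,
      Finset.sum_const, Finset.card_univ, ← Nat.card_eq_fintype_card, Nat.cast_smul_eq_nsmul ℂ]
  have h3 : IsIdempotentElem ((Nat.card H : ℂ)⁻¹ • E) := by
    show ((Nat.card H : ℂ)⁻¹ • E) * ((Nat.card H : ℂ)⁻¹ • E) = _
    rw [smul_mul_smul_comm, h2, smul_smul, mul_assoc, inv_mul_cancel₀ hcard, mul_one]
  have htr : ∀ g : G, LinearMap.trace ℂ (Fin n → ℂ) (E * ρ g) =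
      ∑ h : H, ((lam h : ℂ))⁻¹ * ρ.character (i h * g) := by
    intro g
    rw [hE, Finset.sum_mul, map_sum]
    refine Finset.sum_congr rfl fun h _ => ?_
    rw [smul_mul_assoc, map_smul, smul_eq_mul, ← map_mul]
    rfl
  have h4 : LinearMap.trace ℂ (Fin n → ℂ) ((Nat.card H : ℂ)⁻¹ • E) = 0 := by
    have := htr 1
    rw [map_one, mul_one] at this
    simp only [mul_one] at this
    rw [map_smul, this, h0, smul_zero]
  have h5 : (Nat.card H : ℂ)⁻¹ • E = 0 := LinearMap.IsIdempotentElem.eq_zero_of_trace_eq_zero h3 h4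
  have h6 : E = 0 := (smul_eq_zero.1 h5).resolve_left (inv_ne_zero hcard)
  rw [← htr g, h6, zero_mul, map_zero]

theorem classInner_comb [Finite G] [Fintype (IrrCharacter G)] (i : H →* G) (m : IrrCharacter G → ℕ) (lam : H → ℂ) :
    classInner (fun h => (∑ ψ : IrrCharacter G, m ψ • (ψ : G → ℂ)) (i h)) lam =
      ∑ ψ : IrrCharacter G, (m ψ : ℂ) * classInner (fun h => (ψ : G → ℂ) (i h)) lam := by
  have h1 : (fun h => (∑ ψ : IrrCharacter G, m ψ • (ψ : G → ℂ)) (i h)) =
      ∑ ψ : IrrCharacter G, (m ψ : ℂ) • (fun h => (ψ : G → ℂ) (i h)) := by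
    funext h
    rw [Finset.sum_apply, Finset.sum_apply]
    refine Finset.sum_congr rfl fun ψ _ => ?_
    rw [Pi.smul_apply, Pi.smul_apply, nsmul_eq_mul, smul_eq_mul]
  rw [h1, classInner_sum_left]
  refine Finset.sum_congr rfl fun ψ _ => ?_
  rw [classInner_smul_left]

/-- multiplicities vanish for constituents -/
theorem mult_zero [Fintype G] (i : H →* G) {Φ : G → ℂ} (hΦ : IsCharacter G Φ) {lam : H → ℂ}
    (hl : IsCharacter H lam) (h0 : classInner (fun h => Φ (i h)) lam = 0) (β : IrrCharacter G)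
    (hβ : classInner Φ (β : G → ℂ) ≠ 0) : classInner (fun h => (β : G → ℂ) (i h)) lam = 0 := by
  classical
  have : Finite (IrrCharacter G) := finite_irr
  have := Fintype.ofFinite (IrrCharacter G)
  obtain ⟨m, hm⟩ := exists_nat_comb hΦ
  have hm' : m β ≠ 0 := by
    intro h
    apply hβ
    rw [hm, classInner_sum_nsmul_irr, h, Nat.cast_zero]
  have hnat : ∀ ψ : IrrCharacter G, ∃ a : ℕ, classInner (fun h => (ψ : G → ℂ) (i h)) lam = a := fun ψ =>
    classInner_isNat (isCharacter_comp i (isIrr_isCharacter ψ.2)) hl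
  choose a ha using hnat
  rw [hm, classInner_comb] at h0
  have h1 : ((∑ ψ : IrrCharacter G, m ψ * a ψ : ℕ) : ℂ) = 0 := by
    rw [← h0]
    push_cast
    exact Finset.sum_congr rfl fun ψ _ => by rw [ha]
  have h2 : ∑ ψ : IrrCharacter G, m ψ * a ψ = 0 := by exact_mod_cast h1
  have h3 := (Finset.sum_eq_zero_iff.1 h2) β (Finset.mem_univ _)
  rcases mul_eq_zero.1 h3 with h4 | h4
  · exact absurd h4 hm'
  · rw [ha, h4, Nat.cast_zero]

/-- multiplicities are smaller for constituents -/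
theorem mult_le [Fintype G] (i : H →* G) {Φ : G → ℂ} (hΦ : IsCharacter G Φ) {lam : H → ℂ}
    (hl : IsCharacter H lam) {k : ℕ} (h0 : classInner (fun h => Φ (i h)) lam = k) (β : IrrCharacter G)
    (hβ : classInner Φ (β : G → ℂ) ≠ 0) : ∃ a : ℕ, a ≤ k ∧ classInner (fun h => (β : G → ℂ) (i h)) lam = a := by
  classical
  have : Finite (IrrCharacter G) := finite_irr
  have := Fintype.ofFinite (IrrCharacter G)
  obtain ⟨m, hm⟩ := exists_nat_comb hΦ
  have hm' : m β ≠ 0 := by
    intro h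
    apply hβ
    rw [hm, classInner_sum_nsmul_irr, h, Nat.cast_zero]
  have hnat : ∀ ψ : IrrCharacter G, ∃ a : ℕ, classInner (fun h => (ψ : G → ℂ) (i h)) lam = a := fun ψ =>
    classInner_isNat (isCharacter_comp i (isIrr_isCharacter ψ.2)) hl
  choose a ha using hnat
  refine ⟨a β, ?_, ha β⟩
  rw [hm, classInner_comb] at h0
  have h1 : ((∑ ψ : IrrCharacter G, m ψ * a ψ : ℕ) : ℂ) = k := by
    rw [← h0]
    push_cast
    exact Finset.sum_congr rfl fun ψ _ => by rw [ha]
  have h2 : ∑ ψ : IrrCharacter G, m ψ * a ψ = k := by exact_mod_cast h1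
  have h3 : m β * a β ≤ k := by
    rw [← h2]
    exact Finset.single_le_sum (f := fun ψ => m ψ * a ψ) (fun _ _ => Nat.zero_le _) (Finset.mem_univ β)
  exact le_trans (Nat.le_mul_of_pos_left _ (Nat.pos_of_ne_zero hm')) h3

end

end Cfsg.Agent.H797.EP
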