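import Mathlib
import Cfsg.Agent.H892.EP.Defs

/-!
# Sums over sections

`sec_sum`: the sum over the `p`-section of `u` is `|G : C(u)|` times the sum of `f (u r)` over the `p`-regular
elements `r` of `C(u)`; `t0_sum`: if every constituent of `Φ` in the principal block belongs to the list `T` (with
multiplicity one), then `∑ Φ (u r) = ∑_{χ ∈ T} ∑ χ (u r)`.
-/

set_option autoImplicit false
set_option linter.unusedSectionVars false

open scoped ComplexConjugate
open Cfsg Cfsg.Agent.Characters.Core Cfsg.Agent.H892.EP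

namespace Cfsg.Agent.H797.EP

universe u

variable {G : Type u} [Group G] [Fintype G] {p : ℕ} [hp : Fact p.Prime]

open scoped Classical in
/-- the `p`-regular elements of the centralizer of `u` -/
noncomputable def reg (p : ℕ) (u : G) : Finset G := Finset.univ.filter fun r => Commute u r ∧ ¬ p ∣ orderOf r

theorem mem_reg {u r : G} : r ∈ reg p u ↔ Commute u r ∧ ¬ p ∣ orderOf r := by
  simp [reg]

theorem one_mem_reg (u : G) : (1 : G) ∈ reg p u :=
  mem_reg.2 ⟨Commute.one_right u, by rw [orderOf_one]; exact hp.out.not_dvd_one⟩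

open scoped Classical in
theorem sec_sum {f : G → ℂ} (hf : IsClassFunction G f) {u : G} (hu : ∃ k : ℕ, orderOf u = p ^ k) :
    (Nat.card (Subgroup.centralizer ({u} : Set G)) : ℂ) *
      ∑ᶠ z ∈ {z : G | ∃ w, IsPPart p z w ∧ IsConj u w}, f z =
    (Nat.card G : ℂ) * ∑ r ∈ reg p u, f (u * r) := by
  rw [finsum_mem_eq_finite_toFinset_sum _ (Set.toFinite _)]
  set S := (Set.toFinite {z : G | ∃ w, IsPPart p z w ∧ IsConj u w}).toFinset with hS
  have hmem : ∀ z, z ∈ S ↔ ∃ w, IsPPart p z w ∧ IsConj u w := fun z => by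
    rw [hS, Set.Finite.mem_toFinset]
    rfl
  -- double counting
  have h1 : ∀ z ∈ S, (Nat.card (Subgroup.centralizer ({u} : Set G)) : ℂ) * f z =
      ∑ g : G, if IsPPart p z (g * u * g⁻¹) then f z else 0 := by
    intro z hz
    obtain ⟨w, hw, hconj⟩ := (hmem z).1 hz
    obtain ⟨g0, rfl⟩ := isConj_iff.1 hconj
    rw [← Finset.sum_filter, Finset.sum_const, nsmul_eq_mul]
    congr 2
    rw [Nat.card_eq_fintype_card, ← Finset.card_univ]
    refine Finset.card_bij (fun c _ => g0 * (c : G)) ?_ ?_ ?_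
    · intro c _
      rw [Finset.mem_filter]
      refine ⟨Finset.mem_univ _, ?_⟩
      have hc := Subgroup.mem_centralizer_singleton_iff.1 c.2
      have e1 : g0 * (c : G) * u * (g0 * (c : G))⁻¹ = g0 * u * g0⁻¹ := by
        rw [mul_assoc g0, hc]
        group
      rw [e1]
      exact hw
    · intro c _ c' _ h
      exact Subtype.ext (mul_left_cancel h)
    · intro g hg
      rw [Finset.mem_filter] at hg
      have e1 := Blocks.PPart.isPPart_unique hw hg.2
      refine ⟨⟨g0⁻¹ * g, ?_⟩, Finset.mem_univ _, by group⟩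
      rw [Subgroup.mem_centralizer_singleton_iff]
      calc g0⁻¹ * g * u = g0⁻¹ * (g * u * g⁻¹) * g := by group
        _ = g0⁻¹ * (g0 * u * g0⁻¹) * g := by rw [e1]
        _ = u * (g0⁻¹ * g) := by group
  have h2 : ∀ g : G, ∑ z ∈ S, (if IsPPart p z (g * u * g⁻¹) then f z else 0) = ∑ r ∈ reg p u, f (u * r) := by
    intro g
    rw [← Finset.sum_filter]
    symm
    refine Finset.sum_bij (fun r _ => g * (u * r) * g⁻¹) ?_ ?_ ?_ ?_
    · intro r hr
      rw [mem_reg] at hr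
      have h3 : IsPPart p (g * (u * r) * g⁻¹) (g * u * g⁻¹) :=
        Blocks.PPart.isPPart_conj (Blocks.PPart.isPPart_mul hr.1 hu hr.2) g
      rw [Finset.mem_filter, hmem]
      exact ⟨⟨_, h3, isConj_iff.2 ⟨g, rfl⟩⟩, h3⟩
    · intro r _ r' _ h
      have h3 := mul_left_cancel (mul_right_cancel h)
      exact mul_left_cancel h3
    · intro z hz
      rw [Finset.mem_filter] at hz
      obtain ⟨y, hy1, hy2, hy3, hy4⟩ := hz.2
      refine ⟨g⁻¹ * y * g, ?_, ?_⟩
      · rw [mem_reg]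
        constructor
        · show u * (g⁻¹ * y * g) = g⁻¹ * y * g * u
          have h5 : g * u * g⁻¹ * y = y * (g * u * g⁻¹) := hy2
          calc u * (g⁻¹ * y * g) = g⁻¹ * (g * u * g⁻¹ * y) * g := by group
            _ = g⁻¹ * (y * (g * u * g⁻¹)) * g := by rw [h5]
            _ = _ := by group
        · have h5 : orderOf (g⁻¹ * y * g) = orderOf y := by
            have := (MulAut.conj g⁻¹).orderOf_eq y
            simpa using this
          rw [h5]
          exact hy4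
      · rw [← hy1]
        group
    · intro r _
      exact (hf (u * r) g).symm
  rw [Finset.mul_sum, Finset.sum_congr rfl h1, Finset.sum_comm, Finset.sum_congr rfl fun g _ => h2 g,
    Finset.sum_const, Finset.card_univ, nsmul_eq_mul, Nat.card_eq_fintype_card]

variable {M : Ideal AlgInt}

/-- **(T0)** -/
theorem mem_of_sum (hM : IsPModular p M) (χ : IrrCharacter G) {u : G} (hu : ∃ k : ℕ, orderOf u = p ^ k)
    (h : ∑ r ∈ reg p u, (χ : G → ℂ) (u * r) ≠ 0) : χ ∈ principalBlock M G := by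
  refine mem_of_section_sum hM χ u fun h0 => h ?_
  have h1 := sec_sum (isIrr_isClassFunction χ.2) hu
  rw [h0, mul_zero] at h1
  exact (mul_eq_zero.1 h1.symm).resolve_left card_ne_zero_complex

/-- comparison of section sums -/
theorem t0_sum (hM : IsPModular p M) {Φ : G → ℂ} (hΦ : IsCharacter G Φ) (T : Finset (IrrCharacter G))
    (hT : ∀ χ : IrrCharacter G, classInner Φ (χ : G → ℂ) ≠ 0 → χ ∈ principalBlock M G → χ ∈ T) {u : G}
    (hu : ∃ k : ℕ, orderOf u = p ^ k) :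
    ∑ r ∈ reg p u, Φ (u * r) = ∑ χ ∈ T, classInner Φ (χ : G → ℂ) * ∑ r ∈ reg p u, (χ : G → ℂ) (u * r) := by
  classical
  have : Finite (IrrCharacter G) := finite_irr
  have := Fintype.ofFinite (IrrCharacter G)
  have h1 : ∀ g, Φ g = ∑ χ : IrrCharacter G, classInner Φ (χ : G → ℂ) * (χ : G → ℂ) g := by
    intro g
    have h5 := congrFun (classFunction_eq_sum (isCharacter_isClassFunction hΦ)) g
    rw [Finset.sum_apply] at h5
    simpa only [Pi.smul_apply, smul_eq_mul] using h5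
  rw [Finset.sum_congr rfl fun r _ => h1 (u * r), Finset.sum_comm]
  have h4 : ∀ χ : IrrCharacter G, ∑ r ∈ reg p u, classInner Φ (χ : G → ℂ) * (χ : G → ℂ) (u * r) =
      classInner Φ (χ : G → ℂ) * ∑ r ∈ reg p u, (χ : G → ℂ) (u * r) := fun χ => (Finset.mul_sum _ _ _).symm
  rw [Finset.sum_congr rfl fun χ _ => h4 χ]
  symm
  refine Finset.sum_subset (Finset.subset_univ T) fun χ _ hχ => ?_
  by_cases h2 : classInner Φ (χ : G → ℂ) = 0
  · rw [h2, zero_mul]
  · by_cases h3 : ∑ r ∈ reg p u, (χ : G → ℂ) (u * r) = 0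
    · rw [h3, mul_zero]
    · exact absurd (hT χ h2 (mem_of_sum hM χ hu h3)) hχ

/-- counting on a coset of a subgroup which is transitive on a subset -/
theorem coset_count {Ω : Type*} [MulAction G Ω] [Finite Ω] (X : Set Ω) (Y : Subgroup G) [Fintype Y] (g : G)
    (hg : ∀ ω ∈ X, g⁻¹ • ω ∈ X) (hY : ∀ y ∈ Y, ∀ ω ∈ X, y • ω ∈ X)
    (htr : ∀ ω ∈ X, ∀ ω' ∈ X, ∃ y ∈ Y, y • ω = ω') (hne : X.Nonempty) :
    ∑ y : Y, (Nat.card {ω : Ω // ω ∈ X ∧ (g * (y : G)) • ω = ω} : ℂ) = Nat.card Y := by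
  classical
  have := Fintype.ofFinite Ω
  obtain ⟨ω₀, hω₀⟩ := hne
  have h1 : ∀ y : Y, (Nat.card {ω : Ω // ω ∈ X ∧ (g * (y : G)) • ω = ω} : ℂ) =
      ((∑ ω : Ω, if ω ∈ X ∧ (g * (y : G)) • ω = ω then 1 else 0 : ℕ) : ℂ) := by
    intro y
    rw [Nat.card_eq_fintype_card, Fintype.card_subtype, ← Finset.sum_filter, Finset.sum_const, smul_eq_mul,
      mul_one]
  rw [Finset.sum_congr rfl fun y _ => h1 y, ← Nat.cast_sum, Finset.sum_comm]
  congr 1
  -- for `ω ∈ X`: the number of `y` with `y ω = g⁻¹ ω` is the number of `y` with `y ω₀ = ω`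
  have h2 : ∀ ω : Ω, (∑ y : Y, if ω ∈ X ∧ (g * (y : G)) • ω = ω then 1 else 0) =
      ∑ y : Y, if (y : G) • ω₀ = ω then 1 else 0 := by
    intro ω
    by_cases hω : ω ∈ X
    · obtain ⟨a, ha, haω⟩ := htr ω₀ hω₀ ω hω
      obtain ⟨b, hb, hbω⟩ := htr ω hω (g⁻¹ • ω) (hg ω hω)
      -- y ↦ b⁻¹ y a
      refine Fintype.sum_equiv ((Equiv.mulLeft (⟨b, hb⟩ : Y)⁻¹).trans (Equiv.mulRight (⟨a, ha⟩ : Y))) _ _
        fun y => ?_
      show (if ω ∈ X ∧ (g * (y : G)) • ω = ω then 1 else 0) =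
        if ((((⟨b, hb⟩ : Y)⁻¹ * y) * (⟨a, ha⟩ : Y) : Y) : G) • ω₀ = ω then 1 else 0
      have e1 : ((((⟨b, hb⟩ : Y)⁻¹ * y) * (⟨a, ha⟩ : Y) : Y) : G) = b⁻¹ * y * a := rfl
      have e2 : (ω ∈ X ∧ (g * (y : G)) • ω = ω) ↔ (b⁻¹ * (y : G) * a) • ω₀ = ω := by
        rw [mul_smul _ a, haω, mul_smul b⁻¹, inv_smul_eq_iff, hbω, and_iff_right hω, mul_smul,
          eq_inv_smul_iff]
      rw [e1]
      by_cases h3 : (b⁻¹ * (y : G) * a) • ω₀ = ω
      · rw [if_pos h3, if_pos (e2.2 h3)]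
      · rw [if_neg h3, if_neg fun h4 => h3 (e2.1 h4)]
    · rw [Finset.sum_eq_zero fun y _ => if_neg fun h => hω h.1, Finset.sum_eq_zero]
      intro y _
      refine if_neg fun h => hω ?_
      rw [← h]
      exact hY y y.2 ω₀ hω₀
  rw [Finset.sum_congr rfl fun ω _ => h2 ω, Finset.sum_comm]
  simp

end Cfsg.Agent.H797.EP
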