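import Mathlib
import Cfsg.Agent.H797.EP.Beta
import Cfsg.Agent.H797.EP.Sec

/-!
# The section of an element of odd type

`XD p x N N' V2`: `x` of order `p` with `Vv n = N + N' + V2`, `V2 = Fix x`, `N`, `N'` isotropic, preserved by the
centralizer of `x`. `Yg V2` = the group generated by the transvections of `V2`. Section sums of `piL`, `Op`, `beta`.
-/

set_option autoImplicit false
set_option linter.unusedSectionVars false

open scoped Pointwise Matrix ComplexConjugate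
open Matrix Module Cfsg Cfsg.Agent.Characters.Core

namespace Cfsg.Agent.H797.EP

open Cfsg.Agent.H352.EP

variable {n : ℕ}

/-- the configuration -/
structure XD (p : ℕ) (x : Sp n) (N N' V2 : Submodule (ZMod 2) (Vv n)) : Prop where
  ord : orderOf x = p
  fix : ∀ v, v ∈ V2 ↔ x • v = v
  isoN : ∀ u ∈ N, ∀ v ∈ N, form u v = 0
  isoN' : ∀ u ∈ N', ∀ v ∈ N', form u v = 0
  dec : ∀ v, ∃ a ∈ N, ∃ b ∈ N', ∃ c ∈ V2, v = a + b + c
  orthN : ∀ u ∈ N, ∀ v ∈ V2, form u v = 0
  orthN' : ∀ u ∈ N', ∀ v ∈ V2, form u v = 0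
  centN : ∀ c : Sp n, Commute x c → ∀ v ∈ N, c • v ∈ N
  centN' : ∀ c : Sp n, Commute x c → ∀ v ∈ N', c • v ∈ N'
  leW : N ≤ (lagW n).1
  leC : N' ≤ (lagC n).1
  qfix : x • q0 n = q0 n

/-- the group generated by the transvections of a subspace -/
def Yg (V2 : Submodule (ZMod 2) (Vv n)) : Subgroup (Sp n) := Subgroup.closure {g | ∃ w ∈ V2, g = tv w}

theorem tv_mem_Yg {V2 : Submodule (ZMod 2) (Vv n)} {w : Vv n} (hw : w ∈ V2) : tv w ∈ Yg V2 :=
  Subgroup.subset_closure ⟨w, hw, rfl⟩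

theorem Yg_fix {V2 : Submodule (ZMod 2) (Vv n)} {y : Sp n} (hy : y ∈ Yg V2) :
    ∀ u : Vv n, (∀ w ∈ V2, form u w = 0) → y • u = u := by
  have h : Yg V2 ≤ { carrier := {y : Sp n | ∀ u : Vv n, (∀ w ∈ V2, form u w = 0) → y • u = u},
                     one_mem' := fun u _ => one_smul _ u,
                     mul_mem' := fun {a b} ha hb u hu => by rw [mul_smul, hb u hu, ha u hu],
                     inv_mem' := fun {a} ha u hu => by rw [inv_smul_eq_iff, ha u hu] } := by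
    refine (Subgroup.closure_le _).2 ?_
    rintro _ ⟨w, hw, rfl⟩ u hu
    rw [tv_smul, hu w hw, zero_smul, add_zero]
  exact h hy

theorem conj_tv (c : Sp n) (w : Vv n) : c * tv w * c⁻¹ = tv (c • w) := by
  refine Subtype.ext (LinearEquiv.ext fun v => ?_)
  show (c * tv w * c⁻¹) • v = tv (c • w) • v
  rw [mul_smul, mul_smul, tv_smul, tv_smul, smul_add, smul_inv_smul]
  congr 1
  have h1 : form (c⁻¹ • v) w = form v (c • w) := by
    rw [← form_smul c, smul_inv_smul]
  rw [h1]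
  rcases z2 (form v (c • w)) with h | h <;> rw [h]
  · rw [zero_smul, zero_smul, smul_zero]
  · rw [one_smul, one_smul]

variable {p : ℕ} {x : Sp n} {N N' V2 : Submodule (ZMod 2) (Vv n)}

theorem XD.c_mem (D : XD p x N N' V2) {c : Sp n} (hc : Commute x c) {v : Vv n} (hv : v ∈ V2) : c • v ∈ V2 := by
  rw [D.fix] at hv ⊢
  rw [← mul_smul, hc.eq, mul_smul, hv]

theorem XD.conj_mem (D : XD p x N N' V2) {c : Sp n} (hc : Commute x c) {y : Sp n} (hy : y ∈ Yg V2) :
    c * y * c⁻¹ ∈ Yg V2 := by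
  induction hy using Subgroup.closure_induction with
  | mem y hy =>
    obtain ⟨w, hw, rfl⟩ := hy
    rw [conj_tv]
    exact tv_mem_Yg (D.c_mem hc hw)
  | one => rw [mul_one, mul_inv_cancel]; exact one_mem _
  | mul a b _ _ ha hb =>
    have e : c * (a * b) * c⁻¹ = (c * a * c⁻¹) * (c * b * c⁻¹) := by group
    rw [e]
    exact mul_mem ha hb
  | inv a _ ha =>
    have e : c * a⁻¹ * c⁻¹ = (c * a * c⁻¹)⁻¹ := by group
    rw [e]
    exact inv_mem ha

theorem XD.comm (D : XD p x N N' V2) {y : Sp n} (hy : y ∈ Yg V2) : Commute x y := by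
  induction hy using Subgroup.closure_induction with
  | mem y hy =>
    obtain ⟨w, hw, rfl⟩ := hy
    have h1 := conj_tv x w
    rw [(D.fix w).1 hw] at h1
    exact mul_inv_eq_iff_eq_mul.1 h1
  | one => exact Commute.one_right x
  | mul a b _ _ ha hb => exact ha.mul_right hb
  | inv a _ ha => exact ha.inv_right

/-- the order of `r y` -/
theorem XD.mul_mem_reg [Fact p.Prime] (D : XD p x N N' V2) (hpY : ¬ p ∣ Nat.card (Yg V2)) {r y : Sp n}
    (hr : r ∈ reg p x) (hy : y ∈ Yg V2) : r * y ∈ reg p x := by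
  rw [mem_reg] at hr ⊢
  refine ⟨hr.1.mul_right (D.comm hy), fun hd => ?_⟩
  have h1 : ∀ k : ℕ, ∃ z ∈ Yg V2, (r * y) ^ k = r ^ k * z := by
    intro k
    induction k with
    | zero => exact ⟨1, one_mem _, by simp⟩
    | succ k ih =>
      obtain ⟨z, hz, h2⟩ := ih
      refine ⟨r⁻¹ * z * r * y, mul_mem ?_ hy, ?_⟩
      · have := D.conj_mem hr.1.inv_right hz
        rwa [inv_inv] at this
      · rw [pow_succ, h2, pow_succ]
        group
  obtain ⟨z, hz, h2⟩ := h1 (orderOf r)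
  rw [pow_orderOf_eq_one, one_mul] at h2
  have h3 : orderOf (r * y) ∣ orderOf r * Nat.card (Yg V2) := by
    apply orderOf_dvd_of_pow_eq_one
    rw [pow_mul, h2]
    have h4 : orderOf z ∣ Nat.card (Yg V2) := by
      have := orderOf_dvd_natCard (⟨z, hz⟩ : Yg V2)
      rwa [Subgroup.orderOf_mk] at this
    exact orderOf_dvd_iff_pow_eq_one.1 h4
  rcases (Nat.Prime.dvd_mul Fact.out).1 (hd.trans h3) with h4 | h4
  · exact hr.2 h4
  · exact hpY h4

/-- averaging over cosets of `Y` -/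
theorem XD.avg [Fact p.Prime] (D : XD p x N N' V2) (hpY : ¬ p ∣ Nat.card (Yg V2)) [Fintype (Yg V2)]
    (f : Sp n → ℂ) : ∑ r ∈ reg p x, ∑ y : Yg V2, f (x * r * (y : Sp n)) =
      Nat.card (Yg V2) * ∑ r ∈ reg p x, f (x * r) := by
  rw [Finset.sum_comm]
  have h1 : ∀ y : Yg V2, ∑ r ∈ reg p x, f (x * r * (y : Sp n)) = ∑ r ∈ reg p x, f (x * r) := by
    intro y
    refine Finset.sum_bij (fun r _ => r * (y : Sp n)) ?_ ?_ ?_ ?_
    · intro r hr
      exact D.mul_mem_reg hpY hr y.2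
    · intro r _ r' _ h
      exact mul_right_cancel h
    · intro r hr
      exact ⟨r * (y : Sp n)⁻¹, D.mul_mem_reg hpY hr (inv_mem y.2), by group⟩
    · intro r _
      rw [mul_assoc]
  rw [Finset.sum_congr rfl fun y _ => h1 y, Finset.sum_const, Finset.card_univ, nsmul_eq_mul,
    Nat.card_eq_fintype_card]

/-! ### Fixed forms -/

theorem XD.trans_forms (D : XD p x N N' V2) {θ θ' : QP n} (h : x • θ = θ) (h' : x • θ' = θ') :
    ∃ y ∈ Yg V2, y • θ = θ' := by
  obtain ⟨w, hw⟩ := exists_shift θ.2.1 θ'.2.1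
  refine ⟨tv w, tv_mem_Yg ?_, ?_⟩
  · rw [D.fix]
    have h1 : ∀ v, form w (x⁻¹ • v) = form w v := by
      intro v
      have e1 : θ'.1 (x⁻¹ • v) = θ'.1 v := congrFun (congrArg Subtype.val h') v
      have e2 : θ.1 (x⁻¹ • v) = θ.1 v := congrFun (congrArg Subtype.val h) v
      have e3 := hw (x⁻¹ • v)
      rw [e1, e2, hw] at e3
      exact (add_left_cancel e3).symm
    have h2 : x • w + w = 0 := by
      apply eq_zero_of_form
      intro v
      rw [form_add_left]
      have e1 : form (x • w) v = form w (x⁻¹ • v) := by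
        rw [← form_smul x w, smul_inv_smul]
      rw [e1, h1, z2add]
    calc x • w = x • w + w + w := by rw [add_assoc, vadd, add_zero]
      _ = w := by rw [h2, zero_add]
  · refine Subtype.ext (funext fun v => ?_)
    rw [QP.coe_smul, sm_tv_of_zero θ.2.1 (arf θ.2 θ'.2 hw), hw]

theorem XD.sum_Op [Fact p.Prime] (D : XD p x N N' V2) (hpY : ¬ p ∣ Nat.card (Yg V2)) [Fintype (Yg V2)]
    {r : Sp n} (hr : r ∈ reg p x) : ∑ y : Yg V2, Op (x * r * (y : Sp n)) = Nat.card (Yg V2) := by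
  rw [← coset_count (Ω := QP n) {θ | x • θ = θ} (Yg V2) (x * r)]
  · refine Finset.sum_congr rfl fun y _ => ?_
    unfold Op
    congr 1
    refine Nat.card_congr (Equiv.subtypeEquivRight fun θ => ?_)
    constructor
    · intro h
      refine ⟨?_, h⟩
      obtain ⟨m, hm⟩ := Cfsg.Agent.Blocks.PPart.exists_pow_eq (G := Sp n) p
      have h1 := mem_reg.1 (D.mul_mem_reg hpY hr y.2)
      have h2 := hm (x * (r * (y : Sp n))) x ⟨_, rfl, h1.1, ⟨1, by rw [D.ord, pow_one]⟩, h1.2⟩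
      show x • θ = θ
      have h3 : (x * r * (y : Sp n)) ^ m • θ = θ := by
        have h4 : x * r * (y : Sp n) ∈ MulAction.stabilizer (Sp n) θ := h
        exact pow_mem h4 m
      rw [mul_assoc, h2] at h3
      exact h3
    · exact fun h => h.2
  · intro θ hθ
    have hθ' : x • θ = θ := hθ
    have hr' := (mem_reg.1 hr).1
    show x • (x * r)⁻¹ • θ = (x * r)⁻¹ • θ
    have hc : Commute x (x * r)⁻¹ := ((Commute.refl x).mul_right hr').inv_right
    rw [← mul_smul, hc.eq, mul_smul, hθ']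
  · intro y hy θ hθ
    have hθ' : x • θ = θ := hθ
    show x • y • θ = y • θ
    rw [← mul_smul, (D.comm hy).eq, mul_smul, hθ']
  · intro θ hθ θ' hθ'
    exact D.trans_forms hθ hθ'
  · exact ⟨q0 n, D.qfix⟩

/-! ### Lagrangians -/

/-- `Y` is transitive on the Lagrangians containing `N`. -/
theorem trans_lag_aux (N V2 : Submodule (ZMod 2) (Vv n))
    (hN : ∀ S : Lag n, N ≤ S.1 → ∀ v ∈ S.1, ∃ a ∈ N, ∃ c ∈ V2, c ∈ S.1 ∧ v = a + c) (horth : ∀ u ∈ N, ∀ v ∈ V2, form u v = 0)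
    (k : ℕ) : ∀ S S' : Lag n, N ≤ S.1 → N ≤ S'.1 → n - finrank (ZMod 2) ↥(S.1 ⊓ S'.1) = k →
    ∃ g ∈ Yg V2, g • S = S' := by
  induction k using Nat.strong_induction_on with
  | _ k ih =>
  intro S S' hNS hNS' h
  have hSn : finrank (ZMod 2) S.1 = n := S.2.2
  have hSn' : finrank (ZMod 2) S'.1 = n := S'.2.2
  by_cases hle : S.1 ≤ S'.1
  · refine ⟨1, one_mem _, ?_⟩
    rw [one_smul]
    exact Lag.ext (Submodule.eq_of_le_of_finrank_eq hle (hSn.trans hSn'.symm))
  obtain ⟨v0, hv0, hv0'⟩ := SetLike.not_le_iff_exists.1 hle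
  obtain ⟨a, ha, v, hvV, hv, rfl⟩ := hN S hNS v0 hv0
  have hv' : v ∉ S'.1 := fun h1 => hv0' (add_mem (hNS' ha) h1)
  rw [lag_mem_iff] at hv'
  push Not at hv'
  obtain ⟨u0, hu0, huv0⟩ := hv'
  obtain ⟨a', ha', u, huV, hu, rfl⟩ := hN S' hNS' u0 hu0
  have huv : form u v ≠ 0 := by
    rw [form_add_left, horth a' ha' v hvV, zero_add] at huv0
    exact huv0
  have huv1 : form u v = 1 := (z2 _).resolve_left huv
  have htv : tv (u + v) • v = u := by
    rw [tv_smul, form_add_right, form_comm v u, huv1, form_self, add_zero, one_smul, add_comm u v,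
      ← add_assoc, vadd, zero_add]
  have hfix : ∀ s ∈ S.1 ⊓ S'.1, tv (u + v) • s = s := by
    intro s hs
    rw [tv_smul, form_add_right, S.2.1 s hs.1 v hv, S'.2.1 s hs.2 u hu, add_zero, zero_smul, add_zero]
  have huS : u ∉ S.1 := fun h1 => huv (S.2.1 u h1 v hv)
  have hlt : S.1 ⊓ S'.1 < (tv (u + v) • S).1 ⊓ S'.1 := by
    refine lt_of_le_of_ne ?_ ?_
    · intro s hs
      refine ⟨?_, hs.2⟩
      rw [← hfix s hs]
      exact (smul_mem_act _ _ _).2 hs.1
    · intro he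
      apply huS
      have h1 : u ∈ (tv (u + v) • S).1 ⊓ S'.1 := by
        refine ⟨?_, hu⟩
        have h2 : tv (u + v) • v ∈ (tv (u + v) • S).1 := (smul_mem_act _ _ _).2 hv
        rw [htv] at h2
        exact h2
      rw [← he] at h1
      exact h1.1
  have hlt' := Submodule.finrank_lt_finrank_of_lt hlt
  have hle' : finrank (ZMod 2) ↥((tv (u + v) • S).1 ⊓ S'.1) ≤ n := by
    have := Submodule.finrank_mono (inf_le_right : (tv (u + v) • S).1 ⊓ S'.1 ≤ S'.1)
    omega
  have hNt : N ≤ (tv (u + v) • S).1 := fun s hs => by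
    have h1 := hfix s ⟨hNS hs, hNS' hs⟩
    rw [← h1]
    exact (smul_mem_act _ _ _).2 (hNS hs)
  obtain ⟨g, hg, hgS⟩ := ih (n - finrank (ZMod 2) ↥((tv (u + v) • S).1 ⊓ S'.1)) (by omega) (tv (u + v) • S) S'
    hNt hNS' rfl
  exact ⟨g * tv (u + v), mul_mem hg (tv_mem_Yg (add_mem huV hvV)), by rw [mul_smul]; exact hgS⟩

/-- coset sums on the Lagrangians containing `N` -/
theorem sum_lag (D : XD p x N N' V2) (T : Submodule (ZMod 2) (Vv n)) (hT : ∀ c : Sp n, Commute x c → ∀ v ∈ T, c • v ∈ T)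
    (hdec : ∀ S : Lag n, T ≤ S.1 → ∀ v ∈ S.1, ∃ a ∈ T, ∃ c ∈ V2, c ∈ S.1 ∧ v = a + c)
    (horth : ∀ u ∈ T, ∀ v ∈ V2, form u v = 0) (L0 : Lag n) (hL0 : T ≤ L0.1) [Fintype (Yg V2)]
    {r : Sp n} (hr : Commute x r) :
    ∑ y : Yg V2, (Nat.card {S : Lag n // S ∈ {S : Lag n | T ≤ S.1} ∧ (x * r * (y : Sp n)) • S = S} : ℂ) =
      Nat.card (Yg V2) := by
  have hst : ∀ c : Sp n, Commute x c → ∀ S : Lag n, T ≤ S.1 → T ≤ (c • S).1 := by
    intro c hc S hS v hv
    have h1 : v ∈ (c • S).1 ↔ c⁻¹ • v ∈ S.1 := mem_act _ _ _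
    rw [h1]
    exact hS (hT _ hc.inv_right v hv)
  refine coset_count {S : Lag n | T ≤ S.1} (Yg V2) (x * r) ?_ ?_ ?_ ⟨L0, hL0⟩
  · intro S hS
    exact hst _ ((Commute.refl x).mul_right hr).inv_right S hS
  · intro y hy S hS
    exact hst _ (D.comm hy) S hS
  · intro S hS S' hS'
    exact trans_lag_aux T V2 hdec horth _ S S' hS hS' rfl

theorem XD.dec_lag (D : XD p x N N' V2) (S : Lag n) (hS : N ≤ S.1) (v : Vv n) (hv : v ∈ S.1) :
    ∃ a ∈ N, ∃ c ∈ V2, c ∈ S.1 ∧ v = a + c := by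
  obtain ⟨a, ha, b, hb, c, hc, rfl⟩ := D.dec v
  -- `b = 0`
  have hb0 : b = 0 := by
    apply eq_zero_of_form
    intro u
    obtain ⟨a', ha', b', hb', c', hc', rfl⟩ := D.dec u
    rw [form_add_right, form_add_right, D.isoN' b hb b' hb', D.orthN' b hb c' hc', add_zero, add_zero]
    have h1 := S.2.1 _ hv a' (hS ha')
    rw [form_add_left, form_add_left, D.isoN a ha a' ha', zero_add, form_comm c, D.orthN a' ha' c hc,
      add_zero] at h1
    exact h1
  subst hb0
  rw [add_zero] at hv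
  refine ⟨a, ha, c, hc, ?_, by rw [add_zero]⟩
  have := sub_mem hv (hS ha)
  rwa [add_sub_cancel_left] at this

theorem XD.dec_lag' (D : XD p x N N' V2) (S : Lag n) (hS : N' ≤ S.1) (v : Vv n) (hv : v ∈ S.1) :
    ∃ a ∈ N', ∃ c ∈ V2, c ∈ S.1 ∧ v = a + c := by
  obtain ⟨a, ha, b, hb, c, hc, rfl⟩ := D.dec v
  have ha0 : a = 0 := by
    apply eq_zero_of_form
    intro u
    obtain ⟨a', ha', b', hb', c', hc', rfl⟩ := D.dec u
    rw [form_add_right, form_add_right, D.isoN a ha a' ha', D.orthN a ha c' hc', add_zero, zero_add]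
    have h1 := S.2.1 _ hv b' (hS hb')
    rw [form_add_left, form_add_left, D.isoN' b hb b' hb', add_zero, form_comm c, D.orthN' b' hb' c hc,
      add_zero] at h1
    exact h1
  subst ha0
  rw [zero_add] at hv
  refine ⟨b, hb, c, hc, ?_, by rw [zero_add]⟩
  have := sub_mem hv (hS hb)
  rwa [add_sub_cancel_left] at this

/-- `N ≠ 0` -/
theorem XD.ne_bot [Fact p.Prime] (D : XD p x N N' V2) : N ≠ ⊥ := by
  rintro rfl
  -- then `N' = 0`, so `x = 1`
  have h1 : ∀ b ∈ N', b = 0 := by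
    intro b hb
    apply eq_zero_of_form
    intro u
    obtain ⟨a', ha', b', hb', c', hc', rfl⟩ := D.dec u
    rw [(Submodule.mem_bot _).1 ha', zero_add, form_add_right, D.isoN' b hb b' hb', D.orthN' b hb c' hc', add_zero]
  have h2 : x = 1 := by
    refine Subtype.ext (LinearEquiv.ext fun v => ?_)
    show x • v = v
    obtain ⟨a', ha', b', hb', c', hc', rfl⟩ := D.dec v
    rw [(Submodule.mem_bot _).1 ha', h1 b' hb', zero_add, zero_add]
    exact (D.fix c').1 hc'
  have h3 := D.ord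
  rw [h2, orderOf_one] at h3
  exact (Fact.out : p.Prime).one_lt.ne h3

theorem XD.not_both [Fact p.Prime] (D : XD p x N N' V2) (S : Lag n) (h : N ≤ S.1) (h' : N' ≤ S.1) : False := by
  apply D.ne_bot
  rw [eq_bot_iff]
  intro a ha
  rw [Submodule.mem_bot]
  apply eq_zero_of_form
  intro u
  obtain ⟨a', ha', b', hb', c', hc', rfl⟩ := D.dec u
  rw [form_add_right, form_add_right, D.isoN a ha a' ha', D.orthN a ha c' hc', S.2.1 a (h ha) b' (h' hb'),
    add_zero, add_zero]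

/-- the coset sums of `piL` -/
theorem XD.sum_piL [Fact p.Prime] (D : XD p x N N' V2) [Fintype (Yg V2)] {r : Sp n} (hr : Commute x r) :
    2 * Nat.card (Yg V2) ≤ ∑ y : Yg V2, Nat.card (MulAction.fixedBy (Lag n) (x * r * (y : Sp n))) := by
  have h1 := sum_lag D N D.centN D.dec_lag D.orthN (lagW n) D.leW hr
  have h2 := sum_lag D N' D.centN' D.dec_lag' D.orthN' (lagC n) D.leC hr
  have h1' : ∑ y : Yg V2, Nat.card {S : Lag n // S ∈ {S : Lag n | N ≤ S.1} ∧ (x * r * (y : Sp n)) • S = S} =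
      Nat.card (Yg V2) := by exact_mod_cast h1
  have h2' : ∑ y : Yg V2, Nat.card {S : Lag n // S ∈ {S : Lag n | N' ≤ S.1} ∧ (x * r * (y : Sp n)) • S = S} =
      Nat.card (Yg V2) := by exact_mod_cast h2
  have h3 : 2 * Nat.card (Yg V2) =
      ∑ y : Yg V2, (Nat.card {S : Lag n // S ∈ {S : Lag n | N ≤ S.1} ∧ (x * r * (y : Sp n)) • S = S} +
        Nat.card {S : Lag n // S ∈ {S : Lag n | N' ≤ S.1} ∧ (x * r * (y : Sp n)) • S = S}) := by
    rw [Finset.sum_add_distrib, h1', h2', two_mul]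
  rw [h3]
  refine Finset.sum_le_sum fun y _ => ?_
  rw [← Nat.card_sum]
  refine Nat.card_le_card_of_injective (Sum.elim (fun S => ⟨S.1, S.2.2⟩) (fun S => ⟨S.1, S.2.2⟩)) ?_
  rintro (S | S) (T | T) h
  · have h3 := congrArg Subtype.val h
    have h3' : S.1 = T.1 := h3
    exact congrArg Sum.inl (Subtype.ext h3')
  · exfalso
    have h3 : S.1 = T.1 := congrArg Subtype.val h
    exact D.not_both S.1 S.2.1 (by rw [h3]; exact T.2.1)
  · exfalso
    have h3 : S.1 = T.1 := congrArg Subtype.val h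
    exact D.not_both T.1 T.2.1 (by rw [← h3]; exact S.2.1)
  · have h3 := congrArg Subtype.val h
    have h3' : S.1 = T.1 := h3
    exact congrArg Sum.inr (Subtype.ext h3')

/-- `beta` sums to zero on the cosets of `Y` if `V2 ≠ 0` -/
theorem XD.sum_beta (D : XD p x N N' V2) [Fintype (Yg V2)] {β : IrrCharacter (Sp n)} (hβ : IsBeta β)
    (hV2 : V2 ≠ ⊥) (g : Sp n) : ∑ y : Yg V2, (β : Sp n → ℂ) (g * (y : Sp n)) = 0 := by
  refine beta_coset hβ (Yg V2).subtype (fun θ => ?_) g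
  obtain ⟨w, hw, hw1⟩ : ∃ w ∈ V2, θ.1 w = 1 := by
    by_contra hcon
    push Not at hcon
    apply hV2
    rw [eq_bot_iff]
    intro c hc
    rw [Submodule.mem_bot]
    apply eq_zero_of_form
    intro u
    obtain ⟨a', ha', b', hb', c', hc', rfl⟩ := D.dec u
    rw [form_add_right, form_add_right, form_comm c, form_comm c, D.orthN a' ha' c hc, D.orthN' b' hb' c hc,
      zero_add, zero_add]
    have h0 : ∀ w ∈ V2, θ.1 w = 0 := fun w hw => (z2 _).resolve_right (hcon w hw)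
    have h1 := θ.2.1 c c'
    rw [h0 _ (add_mem hc hc'), h0 c hc, h0 c' hc', zero_add, zero_add] at h1
    exact h1.symm
  exact ⟨⟨tv w, tv_mem_Yg hw⟩, tv_smul_of_one θ hw1, dk_tv (ne_zero_of_one θ.2.1 hw1)⟩

/-- `beta = 1` on the section if `V2 = 0` -/
theorem XD.beta_eq_one [Fact p.Prime] (D : XD p x N N' V2) {β : IrrCharacter (Sp n)} (hβ : IsBeta β)
    (hV2 : V2 = ⊥) {r : Sp n} (hr : r ∈ reg p x) : (β : Sp n → ℂ) (x * r) = 1 := by
  have hr' := (mem_reg.1 hr).1
  -- `N = lagW`, `N' = lagC`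
  have hNW : ∀ v ∈ (lagW n).1, v ∈ N := by
    intro v hv
    obtain ⟨a, ha, b, hb, c, hc, rfl⟩ := D.dec v
    rw [hV2, Submodule.mem_bot] at hc
    subst hc
    rw [add_zero] at hv ⊢
    have h1 : b ∈ (lagW n).1 := by
      have := sub_mem hv (D.leW ha)
      rwa [add_sub_cancel_left] at this
    have h2 : b = 0 := Prod.ext ((mem_lagC b).1 (D.leC hb)) ((mem_lagW b).1 h1)
    rw [h2, add_zero]
    exact ha
  have hNC : ∀ v ∈ (lagC n).1, v ∈ N' := by
    intro v hv
    obtain ⟨a, ha, b, hb, c, hc, rfl⟩ := D.dec v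
    rw [hV2, Submodule.mem_bot] at hc
    subst hc
    rw [add_zero] at hv ⊢
    have h1 : a ∈ (lagC n).1 := by
      have := sub_mem hv (D.leC hb)
      rwa [add_sub_cancel_right] at this
    have h2 : a = 0 := Prod.ext ((mem_lagC a).1 h1) ((mem_lagW a).1 (D.leW ha))
    rw [h2, zero_add]
    exact hb
  have hst : ∀ c : Sp n, Commute x c → c • lagW n = lagW n := by
    intro c hc
    apply Lag.ext
    symm
    apply Submodule.eq_of_le_of_finrank_eq
    · intro v hv
      have h1 : v ∈ (c • lagW n).1 ↔ c⁻¹ • v ∈ (lagW n).1 := mem_act _ _ _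
      rw [h1]
      exact D.leW (D.centN _ hc.inv_right v (hNW v hv))
    · have e1 : finrank (ZMod 2) (c • lagW n).1 = n := (c • lagW n).2.2
      have e2 : finrank (ZMod 2) (lagW n).1 = n := (lagW n).2.2
      rw [e1, e2]
  refine beta_one hβ (hst _ ((Commute.refl x).mul_right hr')) fun s hs => ?_
  -- `qel s` commutes with `x`
  have hcx : Commute x (qel s) := by
    obtain ⟨m, hm⟩ := Cfsg.Agent.Blocks.PPart.exists_pow_eq (G := Sp n) p
    have h2 := hm (x * r) x ⟨_, rfl, hr', ⟨1, by rw [D.ord, pow_one]⟩, (mem_reg.1 hr).2⟩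
    have h3 : Commute (x * r) (qel s) := hs.symm
    have h4 := h3.pow_left m
    rw [h2] at h4
    exact h4
  -- it preserves `lagC`
  have h1 : ∀ b : Fin n → ZMod 2, ((s.toAdd : Sym n) : Matrix (Fin n) (Fin n) (ZMod 2)) *ᵥ b = 0 := by
    intro b
    have h2 : qel s • ((0, b) : Vv n) ∈ (lagC n).1 :=
      D.leC (D.centN' _ hcx _ (hNC _ ((mem_lagC _).2 rfl)))
    rw [mem_lagC, qel_smul] at h2
    simpa using h2
  apply qel_injective
  rw [map_one]
  refine Subtype.ext (LinearEquiv.ext fun v => ?_)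
  show qel s • v = v
  rw [qel_smul, h1, add_zero]

theorem three_le {α : Type*} [Finite α] {a b c : α} (hab : a ≠ b) (hac : a ≠ c) (hbc : b ≠ c) :
    3 ≤ Nat.card α := by
  classical
  have := Fintype.ofFinite α
  have h := Finset.card_le_univ ({a, b, c} : Finset α)
  rw [Finset.card_eq_three.2 ⟨a, b, c, hab, hac, hbc, rfl⟩] at h
  rwa [Nat.card_eq_fintype_card]

theorem XD.three [Fact p.Prime] (D : XD p x N N' V2) (hV : V2 = ⊥) {S : Lag n} (hS : x • S = S)
    (hSW : S ≠ lagW n) (hSC : S ≠ lagC n) : 3 ≤ Nat.card (MulAction.fixedBy (Lag n) x) := by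
  have hstab : ∀ (T : Submodule (ZMod 2) (Vv n)) (L : Lag n), (∀ v ∈ T, x⁻¹ • v ∈ T) → (∀ v ∈ L.1, v ∈ T) →
      T ≤ L.1 → x • L = L := by
    intro T L hT hL hT'
    apply Lag.ext
    symm
    apply Submodule.eq_of_le_of_finrank_eq
    · intro v hv
      have h1 : v ∈ (x • L).1 ↔ x⁻¹ • v ∈ L.1 := mem_act _ _ _
      rw [h1]
      exact hT' (hT v (hL v hv))
    · have e1 : finrank (ZMod 2) (x • L).1 = n := (x • L).2.2
      have e2 : finrank (ZMod 2) L.1 = n := L.2.2
      rw [e1, e2]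
  have hNW : ∀ v ∈ (lagW n).1, v ∈ N := by
    intro v hv
    obtain ⟨a, ha, b, hb, c, hc, rfl⟩ := D.dec v
    rw [hV, Submodule.mem_bot] at hc
    subst hc
    rw [add_zero] at hv ⊢
    have h1 : b ∈ (lagW n).1 := by
      have := sub_mem hv (D.leW ha)
      rwa [add_sub_cancel_left] at this
    have h2 : b = 0 := Prod.ext ((mem_lagC b).1 (D.leC hb)) ((mem_lagW b).1 h1)
    rw [h2, add_zero]
    exact ha
  have hNC : ∀ v ∈ (lagC n).1, v ∈ N' := by
    intro v hv
    obtain ⟨a, ha, b, hb, c, hc, rfl⟩ := D.dec v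
    rw [hV, Submodule.mem_bot] at hc
    subst hc
    rw [add_zero] at hv ⊢
    have h1 : a ∈ (lagC n).1 := by
      have := sub_mem hv (D.leC hb)
      rwa [add_sub_cancel_right] at this
    have h2 : a = 0 := Prod.ext ((mem_lagC a).1 h1) ((mem_lagW a).1 (D.leW ha))
    rw [h2, zero_add]
    exact hb
  have hxW : x • lagW n = lagW n :=
    hstab N (lagW n) (fun v hv => D.centN _ (Commute.refl x).inv_right v hv) hNW D.leW
  have hxC : x • lagC n = lagC n :=
    hstab N' (lagC n) (fun v hv => D.centN' _ (Commute.refl x).inv_right v hv) hNC D.leC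
  have hWC : lagW n ≠ lagC n := by
    intro he
    exact D.not_both (lagW n) D.leW (by rw [he]; exact D.leC)
  refine three_le (a := (⟨lagW n, hxW⟩ : MulAction.fixedBy (Lag n) x)) (b := ⟨lagC n, hxC⟩) (c := ⟨S, hS⟩) ?_ ?_ ?_
  · intro h
    exact hWC (congrArg Subtype.val h)
  · intro h
    exact hSW (congrArg Subtype.val h).symm
  · intro h
    exact hSC (congrArg Subtype.val h).symm

/-- the final comparison: `Φ = piL` would satisfy `∑ piL = |R| + m ∑ rho + ∑ beta` -/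
theorem XD.main [hp : Fact p.Prime] (D : XD p x N N' V2) (hpY : ¬ p ∣ Nat.card (Yg V2)) {β : IrrCharacter (Sp n)}
    (hβ : IsBeta β) (hV2 : V2 = ⊥ → ∃ S : Lag n, x • S = S ∧ S ≠ lagW n ∧ S ≠ lagC n) (m : ℂ) :
    ∑ r ∈ reg p x, piL n (x * r) ≠ ∑ r ∈ reg p x, (1 : ℂ) + m * ∑ r ∈ reg p x, (Op (x * r) - 1) +
      ∑ r ∈ reg p x, (β : Sp n → ℂ) (x * r) := by
  classical
  have := Fintype.ofFinite (Yg V2)
  have hcY : (Nat.card (Yg V2) : ℂ) ≠ 0 := by exact_mod_cast Nat.card_pos.ne'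
  have hY0 : 0 < Nat.card (Yg V2) := Nat.card_pos
  have hOp : ∑ r ∈ reg p x, (Op (x * r) - 1) = 0 := by
    have h1 := D.avg hpY Op
    rw [Finset.sum_congr rfl fun r hr => D.sum_Op hpY hr, Finset.sum_const, nsmul_eq_mul] at h1
    rw [Finset.sum_sub_distrib, Finset.sum_const, nsmul_eq_mul, mul_one]
    have h2 : (Nat.card (Yg V2) : ℂ) * (∑ r ∈ reg p x, Op (x * r) - ((reg p x).card : ℂ)) = 0 := by
      rw [mul_sub, ← h1]; ring
    exact (mul_eq_zero.1 h2).resolve_left hcY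
  rw [hOp, mul_zero, add_zero, Finset.sum_const, nsmul_eq_mul, mul_one]
  -- lower bound for the left side
  have hpi : 2 * (reg p x).card ≤ ∑ r ∈ reg p x, Nat.card (MulAction.fixedBy (Lag n) (x * r)) := by
    have h1 := D.avg hpY (piL n)
    unfold piL at h1
    have h2 : ∑ r ∈ reg p x, ∑ y : Yg V2, Nat.card (MulAction.fixedBy (Lag n) (x * r * (y : Sp n))) =
        Nat.card (Yg V2) * ∑ r ∈ reg p x, Nat.card (MulAction.fixedBy (Lag n) (x * r)) := by
      exact_mod_cast h1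
    have h3 : (reg p x).card * (2 * Nat.card (Yg V2)) ≤
        ∑ r ∈ reg p x, ∑ y : Yg V2, Nat.card (MulAction.fixedBy (Lag n) (x * r * (y : Sp n))) := by
      rw [← smul_eq_mul, ← Finset.sum_const]
      exact Finset.sum_le_sum fun r hr => D.sum_piL (mem_reg.1 hr).1
    rw [h2] at h3
    have h4 : Nat.card (Yg V2) * (2 * (reg p x).card) ≤
        Nat.card (Yg V2) * ∑ r ∈ reg p x, Nat.card (MulAction.fixedBy (Lag n) (x * r)) := by
      calc _ = (reg p x).card * (2 * Nat.card (Yg V2)) := by ring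
        _ ≤ _ := h3
    exact Nat.le_of_mul_le_mul_left h4 hY0
  have hR : 0 < (reg p x).card := Finset.card_pos.2 ⟨1, one_mem_reg x⟩
  have hcast : ∑ r ∈ reg p x, piL n (x * r) =
      ((∑ r ∈ reg p x, Nat.card (MulAction.fixedBy (Lag n) (x * r)) : ℕ) : ℂ) := by
    unfold piL
    push_cast
    rfl
  by_cases hV : V2 = ⊥
  · have hb : ∑ r ∈ reg p x, (β : Sp n → ℂ) (x * r) = ((reg p x).card : ℂ) := by
      rw [Finset.sum_congr rfl fun r hr => D.beta_eq_one hβ hV hr, Finset.sum_const, nsmul_eq_mul, mul_one]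
    rw [hb, hcast]
    intro h
    have h1 : ∑ r ∈ reg p x, Nat.card (MulAction.fixedBy (Lag n) (x * r)) = (reg p x).card + (reg p x).card := by
      exact_mod_cast h
    -- pointwise
    have hY1 : ∀ y : Yg V2, (y : Sp n) = 1 := by
      intro y
      refine Subtype.ext (LinearEquiv.ext fun v => ?_)
      refine Yg_fix y.2 v fun w hw => ?_
      rw [hV, Submodule.mem_bot] at hw
      rw [hw, form_zero_right]
    have hcY1 : Nat.card (Yg V2) = 1 := by
      have : Subsingleton (Yg V2) := ⟨fun a b => Subtype.ext ((hY1 a).trans (hY1 b).symm)⟩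
      exact Nat.card_unique
    have hge : ∀ r ∈ reg p x, 2 ≤ Nat.card (MulAction.fixedBy (Lag n) (x * r)) := by
      intro r hr
      have h2 := D.sum_piL (mem_reg.1 hr).1
      rw [hcY1, mul_one, Finset.sum_congr rfl fun y _ => by rw [hY1 y, mul_one], Finset.sum_const,
        Finset.card_univ, ← Nat.card_eq_fintype_card, hcY1, one_smul] at h2
      exact h2
    have hgt : 3 ≤ Nat.card (MulAction.fixedBy (Lag n) (x * 1)) := by
      rw [mul_one]
      obtain ⟨S, hS, hSW, hSC⟩ := hV2 hV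
      exact D.three hV hS hSW hSC
    have hsum : ∑ r ∈ reg p x, 2 < ∑ r ∈ reg p x, Nat.card (MulAction.fixedBy (Lag n) (x * r)) :=
      Finset.sum_lt_sum hge ⟨1, one_mem_reg x, hgt⟩
    rw [h1, Finset.sum_const, smul_eq_mul] at hsum
    omega
  · have hb : ∑ r ∈ reg p x, (β : Sp n → ℂ) (x * r) = 0 := by
      have h1 := D.avg hpY (β : Sp n → ℂ)
      rw [Finset.sum_congr rfl fun r _ => D.sum_beta hβ hV (x * r), Finset.sum_const, smul_zero] at h1
      exact (mul_eq_zero.1 h1.symm).resolve_left hcY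
    rw [hb, hcast, add_zero]
    intro h
    have h1 : ∑ r ∈ reg p x, Nat.card (MulAction.fixedBy (Lag n) (x * r)) = (reg p x).card := by exact_mod_cast h
    omega

end Cfsg.Agent.H797.EP
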