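import Mathlib
import Cfsg.Agent.H797.EP.OddX

/-!
# The group `Yg V2` is a `p'`-group

`ord 2 mod p = d` odd, `dim V2 = 2 b`, `b < d`, `dim N = a d`, `n = a d + b`.
-/

set_option autoImplicit false
set_option linter.unusedSectionVars false

open scoped Pointwise Matrix ComplexConjugate
open Matrix Module Cfsg

namespace Cfsg.Agent.H797.EP

open Cfsg.Agent.H352.EP

variable {n : ℕ} {p : ℕ} {x : Sp n} {N N' V2 : Submodule (ZMod 2) (Vv n)}

/-- isotropic subspaces have dimension at most `n` -/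
theorem finrank_iso {T : Submodule (ZMod 2) (Vv n)} (h : ∀ u ∈ T, ∀ v ∈ T, form u v = 0) :
    finrank (ZMod 2) T ≤ n := by
  have h1 : T ≤ (bf n).orthogonal T := fun u hu v hv => h v hv u hu
  have h2 := Submodule.finrank_mono h1
  rw [LinearMap.BilinForm.finrank_orthogonal bf_nondeg, finrank_Vv] at h2
  have h3 : finrank (ZMod 2) T ≤ 2 * n := by
    rw [← finrank_Vv (n := n)]
    exact Submodule.finrank_le T
  omega

/-- nondegenerate subspaces have even dimension -/
theorem even_finrank_nd {T : Submodule (ZMod 2) (Vv n)} (h : ∀ u ∈ T, (∀ v ∈ T, form u v = 0) → u = 0) :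
    Even (finrank (ZMod 2) T) := by
  obtain ⟨m, hm⟩ := Cfsg.Agent.ClassicalGeometry.TwoFamilies.exists_finrank_eq_ker_add ((bf n).restrict T)
    (fun v => form_self v.1)
  have h1 : LinearMap.ker ((bf n).restrict T) = ⊥ := by
    rw [eq_bot_iff]
    intro u hu
    rw [LinearMap.mem_ker] at hu
    rw [Submodule.mem_bot]
    apply Subtype.ext
    apply h u.1 u.2
    intro v hv
    exact LinearMap.congr_fun hu ⟨v, hv⟩
  rw [h1, finrank_bot, zero_add] at hm
  exact ⟨m, hm⟩

/-- a fixed point free action of an element of order `p` on the nonzero vectors of `U` -/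
theorem dvd_of_free [hp : Fact p.Prime] {y : Sp n} (hy : orderOf y = p) {U : Submodule (ZMod 2) (Vv n)}
    (hU : ∀ v ∈ U, y • v ∈ U) (hfix : ∀ v ∈ U, y • v = v → v = 0) :
    p ∣ 2 ^ finrank (ZMod 2) U - 1 := by
  classical
  have := Fintype.ofFinite U
  let f : Function.End U := fun u => ⟨y • u.1, hU _ u.2⟩
  have hfk : ∀ (k : ℕ) (u : U), ((f ^ k) u : Vv n) = y ^ k • (u : Vv n) := by
    intro k
    induction k with
    | zero => intro u; rw [pow_zero, pow_zero, one_smul]; rfl
    | succ k ih =>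
      intro u
      have h1 : (f ^ (k + 1)) u = (f ^ k) (f u) := by rw [pow_succ]; rfl
      rw [h1, ih, pow_succ, mul_smul]
  have hf : f ^ p ^ 1 = 1 := by
    funext u
    apply Subtype.ext
    rw [hfk, pow_one, ← hy, pow_orderOf_eq_one, one_smul]
    rfl
  have h1 := Equiv.Perm.card_fixedPoints_modEq hf
  have h2 : Fintype.card (Function.fixedPoints f) = 1 := by
    rw [Fintype.card_eq_one_iff]
    refine ⟨⟨0, Subtype.ext (smul_zero y)⟩, fun u => Subtype.ext (Subtype.ext ?_)⟩
    exact hfix _ u.1.2 (congrArg Subtype.val u.2)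
  rw [h2, ← Nat.card_eq_fintype_card, Module.natCard_eq_pow_finrank (K := ZMod 2), Nat.card_zmod] at h1
  exact (Nat.modEq_iff_dvd' Nat.one_le_two_pow).1 h1.symm

theorem not_dvd_Yg [hp : Fact p.Prime] (hp2 : p ≠ 2) (D : XD p x N N' V2) {a b d : ℕ}
    (hd : ∀ j, p ∣ 2 ^ j - 1 → d ∣ j) (hodd : Odd d) (hN : finrank (ZMod 2) N = a * d)
    (hV2 : finrank (ZMod 2) V2 = 2 * b) (hn : n = a * d + b) (hb : b < d) : ¬ p ∣ Nat.card (Yg V2) := by
  intro hdvd
  obtain ⟨y0, hy0⟩ := exists_prime_orderOf_dvd_card' p hdvd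
  set y : Sp n := (y0 : Sp n) with hydef
  have hyY : y ∈ Yg V2 := y0.2
  have hy : orderOf y = p := by rw [hydef, Subgroup.orderOf_coe, hy0]
  have hy1 : y ≠ 1 := by
    rintro h
    rw [h, orderOf_one] at hy
    exact hp.out.one_lt.ne hy
  have hcxy : Commute x y := D.comm hyY
  let E : Submodule (ZMod 2) (Vv n) :=
    LinearMap.range (((y : Vv n ≃ₗ[ZMod 2] Vv n) : Vv n →ₗ[ZMod 2] Vv n) - LinearMap.id)
  have hE : ∀ v, v ∈ E ↔ ∃ u, y • u - u = v := fun v => Iff.rfl
  have hEV : E ≤ V2 := by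
    intro v hv
    obtain ⟨u, rfl⟩ := (hE v).1 hv
    obtain ⟨a', ha', b', hb', c', hc', rfl⟩ := D.dec u
    rw [smul_add, smul_add, Yg_fix hyY a' (D.orthN a' ha'), Yg_fix hyY b' (D.orthN' b' hb')]
    have h1 : a' + b' + y • c' - (a' + b' + c') = y • c' - c' := by abel
    rw [h1]
    exact sub_mem (D.c_mem hcxy hc') hc'
  have hEy : ∀ v ∈ E, y • v ∈ E := by
    intro v hv
    obtain ⟨u, rfl⟩ := (hE v).1 hv
    exact (hE _).2 ⟨y • u, by rw [smul_sub]⟩
  have hE0 : E ≠ ⊥ := by
    intro h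
    apply hy1
    refine Subtype.ext (LinearEquiv.ext fun v => ?_)
    have h1 : y • v - v ∈ E := (hE _).2 ⟨v, rfl⟩
    rw [h, Submodule.mem_bot] at h1
    exact sub_eq_zero.1 h1
  have hfree : ∀ v ∈ E, y • v = v → v = 0 := by
    intro v hv hfix
    obtain ⟨u, hu⟩ := (hE v).1 hv
    have h1 : ∀ k : ℕ, y ^ k • u = u + (k : ZMod 2) • v := by
      intro k
      induction k with
      | zero => simp
      | succ k ih =>
        rw [pow_succ', mul_smul, ih, smul_add, smul_comm, hfix]
        have h2 : y • u = u + v := by rw [← hu]; abel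
        rw [h2]
        push_cast
        rw [add_smul, one_smul]
        abel
    have h2 := h1 p
    rw [← hy, pow_orderOf_eq_one, one_smul, hy] at h2
    have h3 : (p : ZMod 2) = 1 := by
      rcases hp.out.eq_two_or_odd with h | h
      · exact absurd h hp2
      · rw [← ZMod.natCast_mod, h, Nat.cast_one]
    rw [h3, one_smul] at h2
    exact (add_eq_left.1 h2.symm)
  -- a minimal invariant subspace
  let SS : Set (Submodule (ZMod 2) (Vv n)) := {U | U ≠ ⊥ ∧ U ≤ E ∧ ∀ v ∈ U, y • v ∈ U}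
  obtain ⟨U, hU⟩ := (Set.toFinite SS).exists_minimal ⟨E, hE0, le_rfl, hEy⟩
  obtain ⟨hU0, hUE, hUy⟩ := hU.prop
  have hdU : d ∣ finrank (ZMod 2) U := hd _ (dvd_of_free hy hUy fun v hv => hfree v (hUE hv))
  have hUpos : 0 < finrank (ZMod 2) U := by
    rw [Nat.pos_iff_ne_zero]
    intro h
    exact hU0 (Submodule.finrank_eq_zero.1 h)
  -- the radical of `U`
  let R : Submodule (ZMod 2) (Vv n) := U ⊓ (bf n).orthogonal U
  have hRy : ∀ v ∈ R, y • v ∈ R := by
    intro v hv
    refine ⟨hUy _ hv.1, fun u hu => ?_⟩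
    -- `u = y u'`
    have h1 : y⁻¹ • u ∈ U := by
      have h2 : y⁻¹ = y ^ (p - 1) := by
        rw [inv_eq_iff_mul_eq_one, ← pow_succ', Nat.sub_add_cancel hp.out.one_lt.le, ← hy, pow_orderOf_eq_one]
      have h3 : ∀ k : ℕ, y ^ k • u ∈ U := by
        intro k
        induction k with
        | zero => rwa [pow_zero, one_smul]
        | succ k ih => rw [pow_succ', mul_smul]; exact hUy _ ih
      rw [h2]
      exact h3 _
    show form u (y • v) = 0
    have h4 : form u (y • v) = form (y⁻¹ • u) v := by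
      rw [← form_smul y (y⁻¹ • u), smul_inv_smul]
    rw [h4]
    exact hv.2 _ h1
  by_cases hR0 : R = ⊥
  · -- nondegenerate
    have h1 : Even (finrank (ZMod 2) U) := by
      apply even_finrank_nd
      intro u hu hu'
      have h2 : u ∈ R := ⟨hu, fun v hv => by show form v u = 0; rw [form_comm]; exact hu' v hv⟩
      rw [hR0] at h2
      exact h2
    have h2 : 2 * d ∣ finrank (ZMod 2) U :=
      Nat.Coprime.mul_dvd_of_dvd_of_dvd (Nat.coprime_two_left.2 hodd) h1.two_dvd hdU
    have h3 := Nat.le_of_dvd hUpos h2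
    have h4 := Submodule.finrank_mono (hUE.trans hEV)
    omega
  · have hRU : U ≤ R := hU.le_of_le ⟨hR0, inf_le_left.trans hUE, hRy⟩ inf_le_left
    have hiso : ∀ u ∈ U, ∀ v ∈ U, form u v = 0 := fun u hu v hv => (hRU hv).2 u hu
    have h1 : finrank (ZMod 2) ↥(U ⊔ N) ≤ n := by
      apply finrank_iso
      intro u hu v hv
      obtain ⟨u1, hu1, u2, hu2, rfl⟩ := Submodule.mem_sup.1 hu
      obtain ⟨v1, hv1, v2, hv2, rfl⟩ := Submodule.mem_sup.1 hv
      rw [form_add_left, form_add_right, form_add_right, hiso u1 hu1 v1 hv1, D.isoN u2 hu2 v2 hv2,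
        form_comm u1 v2, D.orthN v2 hv2 u1 (hEV (hUE hu1)), D.orthN u2 hu2 v1 (hEV (hUE hv1))]
      simp
    have h2 : U ⊓ N = ⊥ := by
      rw [eq_bot_iff]
      intro u hu
      rw [Submodule.mem_bot]
      apply eq_zero_of_form
      intro v
      obtain ⟨a', ha', b', hb', c', hc', rfl⟩ := D.dec v
      rw [form_add_right, form_add_right, D.isoN u hu.2 a' ha', D.orthN u hu.2 c' hc', form_comm u b',
        D.orthN' b' hb' u (hEV (hUE hu.1)), add_zero, add_zero]
    have h3 := Submodule.finrank_sup_add_finrank_inf_eq U N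
    rw [h2, finrank_bot, add_zero, hN] at h3
    have h4 := Nat.le_of_dvd hUpos hdU
    omega

end Cfsg.Agent.H797.EP
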