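import Mathlib
import Cfsg.Agent.H797.EP.OddX
import Cfsg.Agent.H797.EP.OddY

/-!
# An element of odd type

`Tz e z`: the linear map `(z, 1)` on `K^a × F_2^b` transported by `e`; `xl T` = `(T, T^{-*})` in `Sp n`;
`exists_XD`: if `d` is the (odd) order of 2 mod `p` and `d < n`, then `Sp n` contains an element with the properties
`XD`, `¬ p ∣ |Yg V2|`.
-/

set_option autoImplicit false
set_option linter.unusedSectionVars false

open scoped Pointwise Matrix
open Matrix Module Polynomial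

namespace Cfsg.Agent.H797.EP

open Cfsg.Agent.H352.EP

section field

variable {K : Type*} [Field K] [Finite K] [Algebra (ZMod 2) K]

theorem minpoly_eval_one {z : K} (hz : z ≠ 1) : (minpoly (ZMod 2) z).eval 1 = 1 := by
  have hint : IsIntegral (ZMod 2) z := Algebra.IsIntegral.isIntegral z
  rcases (by decide : ∀ a : ZMod 2, a = 0 ∨ a = 1) ((minpoly (ZMod 2) z).eval 1) with h | h
  · exfalso
    have h1 : aeval (1 : K) (minpoly (ZMod 2) z) = 0 := by
      have : (1 : K) = algebraMap (ZMod 2) K 1 := by rw [map_one]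
      rw [this, aeval_algebraMap_apply, ← Polynomial.coe_aeval_eq_eval] at *
      simp_all
    have h2 := minpoly.eq_of_irreducible_of_monic (minpoly.irreducible hint) h1 (minpoly.monic hint)
    have h3 := minpoly.aeval (ZMod 2) z
    rw [h2, minpoly.one] at h3
    simp only [map_sub, aeval_X, map_one] at h3
    exact hz (sub_eq_zero.1 h3)
  · exact h

theorem minpoly_inv_ne {z : K} (hodd : Odd (finrank (ZMod 2) K)) (hz0 : z ≠ 0) (hz : z * z ≠ 1) :
    aeval z⁻¹ (minpoly (ZMod 2) z) ≠ 0 := by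
  intro h
  have hint : IsIntegral (ZMod 2) z := Algebra.IsIntegral.isIntegral z
  have h2 := minpoly.eq_of_irreducible_of_monic (minpoly.irreducible hint) h (minpoly.monic hint)
  have h3 : IsConjRoot (ZMod 2) z z⁻¹ := h2
  obtain ⟨σ, hσ⟩ := isConjRoot_iff_exists_algEquiv.1 h3
  have hσ' : σ z = z⁻¹ := inv_eq_iff_eq_inv.1 ((map_inv₀ σ z).symm.trans hσ)
  have hk : ∀ k : ℕ, (σ ^ (2 * k)) z = z := by
    intro k
    induction k with
    | zero => simp
    | succ k ih =>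
      rw [mul_add, mul_one, pow_add, AlgEquiv.mul_apply, pow_two, AlgEquiv.mul_apply, hσ', hσ, ih]
  have hord : Odd (orderOf σ) := by
    have h4 : orderOf σ ∣ finrank (ZMod 2) K := by
      rw [← IsGalois.card_aut_eq_finrank]
      exact orderOf_dvd_natCard σ
    exact Odd.of_dvd_nat hodd h4
  obtain ⟨k, hk2⟩ := hord
  have h5 : (σ ^ (2 * k + 1)) z = z := by rw [← hk2, pow_orderOf_eq_one]; rfl
  rw [pow_succ', AlgEquiv.mul_apply, hk, hσ'] at h5
  apply hz
  nth_rw 1 [← h5]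
  exact inv_mul_cancel₀ hz0

end field

/-! ### Adjoints -/

section adj

variable {n m k : ℕ}

/-- the adjoint of a linear map with respect to the dot products -/
def adj (P : (Fin n → ZMod 2) →ₗ[ZMod 2] (Fin m → ZMod 2)) :
    (Fin m → ZMod 2) →ₗ[ZMod 2] (Fin n → ZMod 2) := Matrix.toLin' (LinearMap.toMatrix' P)ᵀ

theorem dot_adj (P : (Fin n → ZMod 2) →ₗ[ZMod 2] (Fin m → ZMod 2)) (u : Fin n → ZMod 2) (w : Fin m → ZMod 2) :
    u ⬝ᵥ adj P w = (P u) ⬝ᵥ w := by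
  rw [adj, Matrix.toLin'_apply, Matrix.dotProduct_mulVec, Matrix.vecMul_transpose, LinearMap.toMatrix'_mulVec]

theorem dot_ext {w w' : Fin n → ZMod 2} (h : ∀ u, u ⬝ᵥ w = u ⬝ᵥ w') : w = w' := by
  funext i
  simpa using h (Pi.single i 1)

theorem adj_comp (P : (Fin n → ZMod 2) →ₗ[ZMod 2] (Fin m → ZMod 2))
    (Q : (Fin m → ZMod 2) →ₗ[ZMod 2] (Fin k → ZMod 2)) (w : Fin k → ZMod 2) :
    adj P (adj Q w) = adj (Q ∘ₗ P) w := dot_ext fun u => by
  rw [dot_adj, dot_adj, dot_adj]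
  rfl

theorem adj_id (w : Fin n → ZMod 2) : adj (LinearMap.id) w = w := dot_ext fun u => by
  rw [dot_adj]
  rfl

/-- the element `(T, T^{-*})` -/
def xf (T : (Fin n → ZMod 2) ≃ₗ[ZMod 2] (Fin n → ZMod 2)) : Vv n ≃ₗ[ZMod 2] Vv n :=
  LinearEquiv.prodCongr T (LinearEquiv.ofLinearMap (adj T.symm.toLinearMap) (adj T.toLinearMap)
    (LinearMap.ext fun w => by
      rw [LinearMap.comp_apply, adj_comp]
      exact dot_ext fun u => by rw [dot_adj]; simp)
    (LinearMap.ext fun w => by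
      rw [LinearMap.comp_apply, adj_comp]
      exact dot_ext fun u => by rw [dot_adj]; simp))

theorem xf_fst (T : (Fin n → ZMod 2) ≃ₗ[ZMod 2] (Fin n → ZMod 2)) (v : Vv n) : (xf T v).1 = T v.1 := rfl

theorem dot_xf (T : (Fin n → ZMod 2) ≃ₗ[ZMod 2] (Fin n → ZMod 2)) (u : Fin n → ZMod 2) (v : Vv n) :
    u ⬝ᵥ (xf T v).2 = (T.symm u) ⬝ᵥ v.2 := dot_adj _ _ _

theorem xf_mem (T : (Fin n → ZMod 2) ≃ₗ[ZMod 2] (Fin n → ZMod 2)) : xf T ∈ Sp n := by
  intro u v
  rw [form, form, xf_fst, xf_fst, dot_xf, dotProduct_comm (xf T u).2, dot_xf, T.symm_apply_apply,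
    T.symm_apply_apply, dotProduct_comm v.1]

/-- the element `(T, T^{-*})` -/
def xl : ((Fin n → ZMod 2) ≃ₗ[ZMod 2] (Fin n → ZMod 2)) →* Sp n where
  toFun T := ⟨xf T, xf_mem T⟩
  map_one' := by
    refine Subtype.ext (LinearEquiv.ext fun v => Prod.ext rfl ?_)
    exact dot_ext fun u => dot_xf _ _ _
  map_mul' S T := by
    refine Subtype.ext (LinearEquiv.ext fun v => Prod.ext rfl ?_)
    refine dot_ext fun u => ?_
    show u ⬝ᵥ (xf (S * T) v).2 = u ⬝ᵥ (xf S (xf T v)).2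
    rw [dot_xf, dot_xf, dot_xf]
    rfl

theorem xl_fst (T : (Fin n → ZMod 2) ≃ₗ[ZMod 2] (Fin n → ZMod 2)) (v : Vv n) : (xl T • v).1 = T v.1 := rfl

theorem dot_xl (T : (Fin n → ZMod 2) ≃ₗ[ZMod 2] (Fin n → ZMod 2)) (u : Fin n → ZMod 2) (v : Vv n) :
    u ⬝ᵥ (xl T • v).2 = (T.symm u) ⬝ᵥ v.2 := dot_xf _ _ _

theorem xl_inv (T : (Fin n → ZMod 2) ≃ₗ[ZMod 2] (Fin n → ZMod 2)) : (xl T)⁻¹ = xl T.symm := by
  rw [← map_inv]
  rfl

theorem xl_fixq (T : (Fin n → ZMod 2) ≃ₗ[ZMod 2] (Fin n → ZMod 2)) : xl T • q0 n = q0 n := by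
  refine Subtype.ext (funext fun v => ?_)
  show th0 ((xl T)⁻¹ • v) = th0 v
  rw [xl_inv, th0, dot_xl, xl_fst, LinearEquiv.symm_symm, T.apply_symm_apply, th0]

/-! ### Polynomials -/

theorem poly_ind {M : (ZMod 2)[X] → Prop} (hC : ∀ a, M (C a)) (hadd : ∀ q r, M q → M r → M (q + r))
    (hX : ∀ q, M q → M (q * X)) (q : (ZMod 2)[X]) : M q := by
  refine Polynomial.induction_on q hC (fun q r => hadd q r) fun k a h => ?_
  rw [pow_succ, ← mul_assoc]
  exact hX _ h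

theorem aeval_xl_aux {E : Type*} [AddCommGroup E] [Module (ZMod 2) E] (f : E →ₗ[ZMod 2] E) (q : (ZMod 2)[X]) (v : E) :
    aeval f (q * X) v = aeval f q (f v) := by
  rw [map_mul, aeval_X]
  rfl

theorem aeval_xl_aux' {E : Type*} [AddCommGroup E] [Module (ZMod 2) E] (f : E →ₗ[ZMod 2] E) (q : (ZMod 2)[X])
    (v : E) : aeval f (q * X) v = f (aeval f q v) := by
  rw [mul_comm, map_mul, aeval_X]
  rfl

theorem aeval_C_apply {E : Type*} [AddCommGroup E] [Module (ZMod 2) E] (f : E →ₗ[ZMod 2] E) (a : ZMod 2)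
    (v : E) : aeval f (C a) v = a • v := by
  rw [aeval_C]
  rfl

theorem aeval_comm {E : Type*} [AddCommGroup E] [Module (ZMod 2) E] (f c : E →ₗ[ZMod 2] E)
    (h : ∀ v, c (f v) = f (c v)) (q : (ZMod 2)[X]) : ∀ v, c (aeval f q v) = aeval f q (c v) := by
  refine poly_ind (M := fun q => ∀ v, c (aeval f q v) = aeval f q (c v)) ?_ ?_ ?_ q
  · intro a v
    rw [aeval_C_apply, aeval_C_apply, map_smul]
  · intro q r hq hr v
    rw [map_add, LinearMap.add_apply, map_add, hq, hr, LinearMap.add_apply]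
  · intro q hq v
    rw [aeval_xl_aux, aeval_xl_aux, hq, h]

theorem aeval_xl (T : (Fin n → ZMod 2) ≃ₗ[ZMod 2] (Fin n → ZMod 2)) (q : (ZMod 2)[X]) : ∀ v : Vv n,
    (aeval ((xf T : Vv n ≃ₗ[ZMod 2] Vv n) : Vv n →ₗ[ZMod 2] Vv n) q v).1 =
      aeval (T : (Fin n → ZMod 2) →ₗ[ZMod 2] (Fin n → ZMod 2)) q v.1 ∧
    ∀ u, u ⬝ᵥ (aeval ((xf T : Vv n ≃ₗ[ZMod 2] Vv n) : Vv n →ₗ[ZMod 2] Vv n) q v).2 =
      (aeval (T.symm : (Fin n → ZMod 2) →ₗ[ZMod 2] (Fin n → ZMod 2)) q u) ⬝ᵥ v.2 := by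
  refine poly_ind (M := fun q => ∀ v : Vv n,
    (aeval ((xf T : Vv n ≃ₗ[ZMod 2] Vv n) : Vv n →ₗ[ZMod 2] Vv n) q v).1 =
      aeval (T : (Fin n → ZMod 2) →ₗ[ZMod 2] (Fin n → ZMod 2)) q v.1 ∧
    ∀ u, u ⬝ᵥ (aeval ((xf T : Vv n ≃ₗ[ZMod 2] Vv n) : Vv n →ₗ[ZMod 2] Vv n) q v).2 =
      (aeval (T.symm : (Fin n → ZMod 2) →ₗ[ZMod 2] (Fin n → ZMod 2)) q u) ⬝ᵥ v.2) ?_ ?_ ?_ q
  · intro a v
    refine ⟨?_, fun u => ?_⟩
    · rw [aeval_C_apply, aeval_C_apply, Prod.smul_fst]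
    · rw [aeval_C_apply, aeval_C_apply, Prod.smul_snd, dotProduct_smul, smul_dotProduct]
  · intro q r hq hr v
    refine ⟨?_, fun u => ?_⟩
    · rw [map_add, LinearMap.add_apply, Prod.fst_add, (hq v).1, (hr v).1, map_add, LinearMap.add_apply]
    · rw [map_add, LinearMap.add_apply, Prod.snd_add, dotProduct_add, (hq v).2, (hr v).2, map_add,
        LinearMap.add_apply, add_dotProduct]
  · intro q hq v
    refine ⟨?_, fun u => ?_⟩
    · rw [aeval_xl_aux, (hq _).1, aeval_xl_aux]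
      rfl
    · rw [aeval_xl_aux, (hq _).2, aeval_xl_aux']
      exact dot_xf _ _ _

end adj

/-! ### The element -/

section main

variable {K : Type} [Field K] [Finite K] [Algebra (ZMod 2) K] {n a b : ℕ}

/-- multiplication by `z` -/
def zmap (a : ℕ) (z : K) (hz : z ≠ 0) : (Fin a → K) ≃ₗ[ZMod 2] (Fin a → K) where
  toFun α := z • α
  invFun α := z⁻¹ • α
  map_add' α β := smul_add z α β
  map_smul' c α := smul_comm z c α
  left_inv α := by simp [smul_smul, inv_mul_cancel₀ hz]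
  right_inv α := by simp [smul_smul, mul_inv_cancel₀ hz]

variable (e : (Fin n → ZMod 2) ≃ₗ[ZMod 2] (Fin a → K) × (Fin b → ZMod 2))

/-- `(z, 1)` -/
def Tz (z : K) (hz : z ≠ 0) : (Fin n → ZMod 2) ≃ₗ[ZMod 2] (Fin n → ZMod 2) :=
  e ≪≫ₗ (LinearEquiv.prodCongr (zmap a z hz) (LinearEquiv.refl (ZMod 2) (Fin b → ZMod 2))) ≪≫ₗ e.symm

theorem e_Tz (z : K) (hz : z ≠ 0) (u : Fin n → ZMod 2) : e (Tz e z hz u) = (z • (e u).1, (e u).2) := by
  show e (e.symm (z • (e u).1, (e u).2)) = _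
  rw [e.apply_symm_apply]

theorem e_Tz_symm (z : K) (hz : z ≠ 0) (u : Fin n → ZMod 2) :
    e ((Tz e z hz).symm u) = (z⁻¹ • (e u).1, (e u).2) := by
  apply (LinearEquiv.prodCongr (zmap a z hz) (LinearEquiv.refl (ZMod 2) (Fin b → ZMod 2))).injective
  show (z • (e ((Tz e z hz).symm u)).1, (e ((Tz e z hz).symm u)).2) = (z • (z⁻¹ • (e u).1), (e u).2)
  rw [← e_Tz e z hz, LinearEquiv.apply_symm_apply, smul_smul, mul_inv_cancel₀ hz, one_smul]

theorem e_aeval (z : K) (T : (Fin n → ZMod 2) →ₗ[ZMod 2] (Fin n → ZMod 2))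
    (hT : ∀ u, e (T u) = (z • (e u).1, (e u).2)) (q : (ZMod 2)[X]) :
    ∀ u, e (aeval T q u) = (aeval z q • (e u).1, q.eval 1 • (e u).2) := by
  refine poly_ind (M := fun q => ∀ u, e (aeval T q u) = (aeval z q • (e u).1, q.eval 1 • (e u).2)) ?_ ?_ ?_ q
  · intro c u
    rw [aeval_C_apply, map_smul, aeval_C, eval_C, algebraMap_smul]
    rfl
  · intro q r hq hr u
    rw [map_add, LinearMap.add_apply, map_add, hq, hr, map_add, eval_add, add_smul, add_smul]
    rfl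
  · intro q hq u
    rw [aeval_xl_aux, hq, hT, map_mul, aeval_X, eval_mul, eval_X, mul_one, mul_smul]

/-- the subspace `N` -/
def sN : Submodule (ZMod 2) (Vv n) where
  carrier := {v | v.2 = 0 ∧ (e v.1).2 = 0}
  zero_mem' := ⟨rfl, by rw [Prod.fst_zero, map_zero]; rfl⟩
  add_mem' := by
    rintro u v ⟨h1, h2⟩ ⟨h3, h4⟩
    exact ⟨by rw [Prod.snd_add, h1, h3, add_zero], by rw [Prod.fst_add, map_add, Prod.snd_add, h2, h4, add_zero]⟩
  smul_mem' := by
    rintro c v ⟨h1, h2⟩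
    exact ⟨by rw [Prod.smul_snd, h1, smul_zero], by rw [Prod.smul_fst, map_smul, Prod.smul_snd, h2, smul_zero]⟩

theorem mem_sN (v : Vv n) : v ∈ sN e ↔ v.2 = 0 ∧ (e v.1).2 = 0 := Iff.rfl

/-- the subspace `N'` -/
def sN' : Submodule (ZMod 2) (Vv n) where
  carrier := {v | v.1 = 0 ∧ ∀ u, (e u).1 = 0 → u ⬝ᵥ v.2 = 0}
  zero_mem' := ⟨rfl, fun u _ => by rw [Prod.snd_zero, dotProduct_zero]⟩
  add_mem' := by
    rintro u v ⟨h1, h2⟩ ⟨h3, h4⟩
    exact ⟨by rw [Prod.fst_add, h1, h3, add_zero], fun w hw => by rw [Prod.snd_add, dotProduct_add, h2 w hw, h4 w hw, add_zero]⟩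
  smul_mem' := by
    rintro c v ⟨h1, h2⟩
    exact ⟨by rw [Prod.smul_fst, h1, smul_zero], fun w hw => by rw [Prod.smul_snd, dotProduct_smul, h2 w hw, smul_zero]⟩

theorem mem_sN' (v : Vv n) : v ∈ sN' e ↔ v.1 = 0 ∧ ∀ u, (e u).1 = 0 → u ⬝ᵥ v.2 = 0 := Iff.rfl

/-- the subspace `V2` -/
def sV : Submodule (ZMod 2) (Vv n) where
  carrier := {v | (e v.1).1 = 0 ∧ ∀ u, (e u).2 = 0 → u ⬝ᵥ v.2 = 0}
  zero_mem' := ⟨by rw [Prod.fst_zero, map_zero]; rfl, fun u _ => by rw [Prod.snd_zero, dotProduct_zero]⟩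
  add_mem' := by
    rintro u v ⟨h1, h2⟩ ⟨h3, h4⟩
    exact ⟨by rw [Prod.fst_add, map_add, Prod.fst_add, h1, h3, add_zero], fun w hw => by rw [Prod.snd_add, dotProduct_add, h2 w hw, h4 w hw, add_zero]⟩
  smul_mem' := by
    rintro c v ⟨h1, h2⟩
    exact ⟨by rw [Prod.smul_fst, map_smul, Prod.smul_fst, h1, smul_zero], fun w hw => by rw [Prod.smul_snd, dotProduct_smul, h2 w hw, smul_zero]⟩

theorem mem_sV (v : Vv n) : v ∈ sV e ↔ (e v.1).1 = 0 ∧ ∀ u, (e u).2 = 0 → u ⬝ᵥ v.2 = 0 := Iff.rfl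

theorem sV_fix {z : K} (hz : z ≠ 0) (hz1 : z ≠ 1) (v : Vv n) : v ∈ sV e ↔ xl (Tz e z hz) • v = v := by
  rw [mem_sV]
  constructor
  · rintro ⟨h1, h2⟩
    refine Prod.ext ?_ (dot_ext fun u => ?_)
    · rw [xl_fst]
      apply e.injective
      rw [e_Tz, h1, smul_zero]
      exact Prod.ext h1.symm rfl
    · rw [dot_xl, ← sub_eq_zero, ← sub_dotProduct]
      apply h2
      rw [map_sub, e_Tz_symm]
      show (e u).2 - (e u).2 = 0
      rw [sub_self]
  · intro h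
    have h1 : Tz e z hz v.1 = v.1 := congrArg Prod.fst h
    have h2 := congrArg e h1
    rw [e_Tz] at h2
    have h3 : z • (e v.1).1 = (e v.1).1 := congrArg Prod.fst h2
    refine ⟨?_, fun u hu => ?_⟩
    · have h4 : (z - 1) • (e v.1).1 = 0 := by rw [sub_smul, h3, one_smul, sub_self]
      exact (smul_eq_zero.1 h4).resolve_left (sub_ne_zero.2 hz1)
    · have hzi : z⁻¹ - 1 ≠ 0 := sub_ne_zero.2 fun h => hz1 (inv_eq_one.1 h)
      obtain ⟨u', hu'⟩ := e.surjective ((z⁻¹ - 1)⁻¹ • (e u).1, 0)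
      have h5 : (Tz e z hz).symm u' - u' = u := by
        apply e.injective
        rw [map_sub, e_Tz_symm, hu']
        refine Prod.ext ?_ ?_
        · show z⁻¹ • ((z⁻¹ - 1)⁻¹ • (e u).1) - (z⁻¹ - 1)⁻¹ • (e u).1 = (e u).1
          rw [← one_smul K ((z⁻¹ - 1)⁻¹ • (e u).1), smul_smul, ← sub_smul, smul_smul, mul_one, mul_inv_cancel₀ hzi,
            one_smul]
        · show (0 : Fin b → ZMod 2) - 0 = (e u).2
          rw [hu, sub_zero]
      rw [← h5, sub_dotProduct, ← dot_xl, h, sub_self]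

theorem mem_sN_iff {z : K} (hz : z ≠ 0) {q : (ZMod 2)[X]} (hq : aeval z q = 0) (hq' : aeval z⁻¹ q ≠ 0)
    (hq1 : q.eval 1 = 1) (v : Vv n) :
    v ∈ sN e ↔ aeval ((xf (Tz e z hz) : Vv n ≃ₗ[ZMod 2] Vv n) : Vv n →ₗ[ZMod 2] Vv n) q v = 0 := by
  obtain ⟨h1, h2⟩ := aeval_xl (Tz e z hz) q v
  have h3 := e_aeval e z (Tz e z hz).toLinearMap (fun u => e_Tz e z hz u) q
  have h4 := e_aeval e z⁻¹ (Tz e z hz).symm.toLinearMap (fun u => e_Tz_symm e z hz u) q
  rw [hq, hq1] at h3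
  rw [hq1] at h4
  rw [mem_sN]
  constructor
  · rintro ⟨h5, h6⟩
    refine Prod.ext ?_ (dot_ext fun u => ?_)
    · rw [h1]
      apply e.injective
      show e (aeval (Tz e z hz).toLinearMap q v.1) = e 0
      rw [h3, h6, zero_smul, smul_zero, map_zero]
      rfl
    · rw [h2, h5, dotProduct_zero]
      exact (dotProduct_zero u).symm
  · intro h
    rw [h] at h1 h2
    constructor
    · refine dot_ext fun u => ?_
      obtain ⟨u', hu'⟩ := e.surjective ((aeval z⁻¹ q)⁻¹ • (e u).1, (e u).2)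
      have h5 : aeval (Tz e z hz).symm.toLinearMap q u' = u := by
        apply e.injective
        rw [h4, hu', smul_smul, mul_inv_cancel₀ hq', one_smul, one_smul]
      have h6 := h2 u'
      rw [dotProduct_zero, ← h5]
      exact h6.symm.trans (dotProduct_zero u')
    · have h5 := h3 v.1
      have h6 : aeval (Tz e z hz).toLinearMap q v.1 = 0 := h1.symm
      rw [h6, map_zero] at h5
      have h7 := congrArg Prod.snd h5
      exact ((one_smul _ _).symm.trans h7.symm)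

theorem mem_sN'_iff {z : K} (hz : z ≠ 0) {q : (ZMod 2)[X]} (hq : aeval z q = 0) (hq' : aeval z⁻¹ q ≠ 0)
    (hq1 : q.eval 1 = 1) (v : Vv n) :
    v ∈ sN' e ↔ aeval ((xf (Tz e z hz).symm : Vv n ≃ₗ[ZMod 2] Vv n) : Vv n →ₗ[ZMod 2] Vv n) q v = 0 := by
  obtain ⟨h1, h2⟩ := aeval_xl (Tz e z hz).symm q v
  have h3 := e_aeval e z (Tz e z hz).toLinearMap (fun u => e_Tz e z hz u) q
  have h4 := e_aeval e z⁻¹ (Tz e z hz).symm.toLinearMap (fun u => e_Tz_symm e z hz u) q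
  rw [hq, hq1] at h3
  rw [hq1] at h4
  rw [mem_sN']
  constructor
  · rintro ⟨h5, h6⟩
    refine Prod.ext ?_ (dot_ext fun u => ?_)
    · rw [h1, h5, map_zero]
      rfl
    · rw [h2]
      refine (h6 _ ?_).trans (dotProduct_zero u).symm
      show (e (aeval (Tz e z hz).toLinearMap q u)).1 = 0
      rw [h3, zero_smul]
  · intro h
    rw [h] at h1 h2
    constructor
    · apply e.injective
      have h5 := h4 v.1
      have h6 : aeval (Tz e z hz).symm.toLinearMap q v.1 = 0 := h1.symm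
      rw [h6, map_zero] at h5
      have h7 := congrArg Prod.snd h5
      have h8 := congrArg Prod.fst h5
      rw [map_zero]
      refine Prod.ext ?_ ((one_smul _ _).symm.trans h7.symm)
      exact (smul_eq_zero.1 h8.symm).resolve_left hq'
    · intro u hu
      have h5 : aeval (Tz e z hz).toLinearMap q u = u := by
        apply e.injective
        rw [h3, zero_smul, one_smul]
        exact Prod.ext hu.symm rfl
      have h6 := h2 u
      rw [← h5]
      exact h6.symm.trans (dotProduct_zero u)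

theorem Tz_pow {z : K} (hz : z ≠ 0) (k : ℕ) (u : Fin n → ZMod 2) :
    e ((Tz e z hz ^ k) u) = (z ^ k • (e u).1, (e u).2) := by
  induction k generalizing u with
  | zero => simp
  | succ k ih =>
    rw [pow_succ, LinearEquiv.mul_apply, ih, e_Tz, smul_smul, ← pow_succ]

theorem orderOf_xl {p : ℕ} [hp : Fact p.Prime] {z : K} (hz : z ≠ 0) (hz1 : z ≠ 1) (hzp : z ^ p = 1) (ha : 1 ≤ a) :
    orderOf (xl (Tz e z hz)) = p := by
  refine orderOf_eq_prime ?_ ?_
  · rw [← map_pow]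
    have h1 : Tz e z hz ^ p = 1 := by
      refine LinearEquiv.ext fun u => e.injective ?_
      rw [Tz_pow, hzp, one_smul]
      rfl
    rw [h1, map_one]
  · intro h
    obtain ⟨u, hu⟩ := e.surjective ((fun _ => 1 : Fin a → K), 0)
    have h1 : (xl (Tz e z hz) • ((u, 0) : Vv n)).1 = u := by
      rw [h, one_smul]
    have h2 := congrArg e h1
    rw [xl_fst, e_Tz] at h2
    have h3 : z • (e u).1 = (e u).1 := congrArg Prod.fst h2
    rw [hu] at h3
    have h4 := congrFun h3 ⟨0, ha⟩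
    have h5 : z * 1 = 1 := h4
    exact hz1 (by rw [← h5, mul_one])

/-- the projection on the second summand -/
def pr : (Fin n → ZMod 2) →ₗ[ZMod 2] (Fin n → ZMod 2) :=
  e.symm.toLinearMap ∘ₗ (LinearMap.inr (ZMod 2) (Fin a → K) (Fin b → ZMod 2)) ∘ₗ
    (LinearMap.snd (ZMod 2) (Fin a → K) (Fin b → ZMod 2)) ∘ₗ e.toLinearMap

theorem e_pr (u : Fin n → ZMod 2) : e (pr e u) = (0, (e u).2) := by
  show e (e.symm (0, (e u).2)) = _
  rw [e.apply_symm_apply]

theorem pr_zero {u : Fin n → ZMod 2} (h : (e u).2 = 0) : pr e u = 0 := by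
  apply e.injective
  rw [e_pr, h, map_zero]
  rfl

theorem pr_self {u : Fin n → ZMod 2} (h : (e u).1 = 0) : pr e u = u := by
  apply e.injective
  rw [e_pr]
  exact Prod.ext h.symm rfl

theorem s_dec (v : Vv n) : ∃ x ∈ sN e, ∃ y ∈ sN' e, ∃ w ∈ sV e, v = x + y + w := by
  refine ⟨(v.1 - pr e v.1, 0), ?_, (0, v.2 - adj (pr e) v.2), ?_, (pr e v.1, adj (pr e) v.2), ?_, ?_⟩
  · refine ⟨rfl, ?_⟩
    rw [map_sub, e_pr]
    exact sub_self _
  · refine ⟨rfl, fun u hu => ?_⟩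
    show u ⬝ᵥ (v.2 - adj (pr e) v.2) = 0
    rw [dotProduct_sub, dot_adj, pr_self e hu, sub_self]
  · refine ⟨?_, fun u hu => ?_⟩
    · rw [e_pr]
    · show u ⬝ᵥ (adj (pr e) v.2) = 0
      rw [dot_adj, pr_zero e hu, zero_dotProduct]
  · refine Prod.ext ?_ ?_
    · show v.1 = v.1 - pr e v.1 + 0 + pr e v.1
      abel
    · show v.2 = 0 + (v.2 - adj (pr e) v.2) + adj (pr e) v.2
      abel

theorem s_isoN : ∀ u ∈ sN e, ∀ v ∈ sN e, form u v = 0 := by
  rintro u ⟨h1, -⟩ v ⟨h2, -⟩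
  rw [form, h1, h2, dotProduct_zero, zero_dotProduct, add_zero]

theorem s_isoN' : ∀ u ∈ sN' e, ∀ v ∈ sN' e, form u v = 0 := by
  rintro u ⟨h1, -⟩ v ⟨h2, -⟩
  rw [form, h1, h2, dotProduct_zero, zero_dotProduct, add_zero]

theorem s_orthN : ∀ u ∈ sN e, ∀ v ∈ sV e, form u v = 0 := by
  rintro u ⟨h1, h2⟩ v ⟨_, h4⟩
  rw [form, h1, h4 _ h2, zero_dotProduct, add_zero]

theorem s_orthN' : ∀ u ∈ sN' e, ∀ v ∈ sV e, form u v = 0 := by
  rintro u ⟨h1, h2⟩ v ⟨h3, _⟩
  rw [form, h1, dotProduct_comm u.2, h2 _ h3, zero_dotProduct, add_zero]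

theorem s_XD {p : ℕ} [hp : Fact p.Prime] {z : K} (hz : z ≠ 0) (hz1 : z ≠ 1) (hzp : z ^ p = 1) (ha : 1 ≤ a)
    {q : (ZMod 2)[X]} (hq : aeval z q = 0) (hq' : aeval z⁻¹ q ≠ 0) (hq1 : q.eval 1 = 1) :
    XD p (xl (Tz e z hz)) (sN e) (sN' e) (sV e) where
  ord := orderOf_xl e hz hz1 hzp ha
  fix := sV_fix e hz hz1
  isoN := s_isoN e
  isoN' := s_isoN' e
  dec := s_dec e
  orthN := s_orthN e
  orthN' := s_orthN' e
  centN := by
    intro c hc v hv
    rw [mem_sN_iff e hz hq hq' hq1] at hv ⊢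
    have h1 : ∀ w : Vv n, (c : Vv n ≃ₗ[ZMod 2] Vv n).toLinearMap ((xf (Tz e z hz)).toLinearMap w) =
        (xf (Tz e z hz)).toLinearMap ((c : Vv n ≃ₗ[ZMod 2] Vv n).toLinearMap w) := by
      intro w
      show c • (xl (Tz e z hz) • w) = xl (Tz e z hz) • (c • w)
      rw [smul_smul, smul_smul, hc.eq]
    have h2 := aeval_comm _ _ h1 q v
    rw [hv, map_zero] at h2
    exact h2.symm
  centN' := by
    intro c hc v hv
    rw [mem_sN'_iff e hz hq hq' hq1] at hv ⊢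
    have h1 : ∀ w : Vv n, (c : Vv n ≃ₗ[ZMod 2] Vv n).toLinearMap ((xf (Tz e z hz).symm).toLinearMap w) =
        (xf (Tz e z hz).symm).toLinearMap ((c : Vv n ≃ₗ[ZMod 2] Vv n).toLinearMap w) := by
      intro w
      show c • (xl (Tz e z hz).symm • w) = xl (Tz e z hz).symm • (c • w)
      rw [← xl_inv, smul_smul, smul_smul, (hc.inv_left).eq]
    have h2 := aeval_comm _ _ h1 q v
    rw [hv, map_zero] at h2
    exact h2.symm
  leW := fun v hv => (mem_lagW v).2 hv.1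
  leC := fun v hv => (mem_lagC v).2 hv.1
  qfix := xl_fixq _

/-! ### Dimensions -/

theorem finrank_sN : finrank (ZMod 2) (sN e) = a * finrank (ZMod 2) K := by
  let f : sN e ≃ₗ[ZMod 2] (Fin a → K) := {
    toFun := fun v => (e v.1.1).1
    invFun := fun α => ⟨(e.symm (α, 0), 0), rfl, by show (e (e.symm (α, 0))).2 = 0; rw [e.apply_symm_apply]⟩
    map_add' := fun u v => by
      show (e (u.1.1 + v.1.1)).1 = _
      rw [map_add]
      rfl
    map_smul' := fun c v => by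
      show (e (c • v.1.1)).1 = _
      rw [map_smul]
      rfl
    left_inv := fun v => by
      refine Subtype.ext (Prod.ext ?_ v.2.1.symm)
      apply e.injective
      show e (e.symm _) = _
      rw [e.apply_symm_apply]
      exact Prod.ext rfl v.2.2.symm
    right_inv := fun α => by
      show (e (e.symm (α, 0))).1 = α
      rw [e.apply_symm_apply] }
  rw [LinearEquiv.finrank_eq f, Module.finrank_pi_fintype, Finset.sum_const, Finset.card_univ, Fintype.card_fin,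
    smul_eq_mul]

/-- the inclusion of the second summand -/
def qi : (Fin b → ZMod 2) →ₗ[ZMod 2] (Fin n → ZMod 2) :=
  e.symm.toLinearMap ∘ₗ (LinearMap.inr (ZMod 2) (Fin a → K) (Fin b → ZMod 2))

/-- the projection on the second summand -/
def qp : (Fin n → ZMod 2) →ₗ[ZMod 2] (Fin b → ZMod 2) :=
  (LinearMap.snd (ZMod 2) (Fin a → K) (Fin b → ZMod 2)) ∘ₗ e.toLinearMap

theorem qi_qp (u : Fin n → ZMod 2) : qi e (qp e u) = pr e u := rfl

theorem qp_qi (u : Fin b → ZMod 2) : qp e (qi e u) = u := by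
  show (e (e.symm (0, u))).2 = u
  rw [e.apply_symm_apply]

theorem e_qi (u : Fin b → ZMod 2) : (e (qi e u)).1 = 0 := by
  show (e (e.symm (0, u))).1 = 0
  rw [e.apply_symm_apply]

theorem finrank_sV : finrank (ZMod 2) (sV e) = 2 * b := by
  let f : sV e ≃ₗ[ZMod 2] (Fin b → ZMod 2) × (Fin b → ZMod 2) := {
    toFun := fun v => (qp e v.1.1, adj (qi e) v.1.2)
    invFun := fun α => ⟨(qi e α.1, adj (qp e) α.2), e_qi e α.1, fun u hu => by
      show u ⬝ᵥ adj (qp e) α.2 = 0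
      rw [dot_adj]
      have : qp e u = 0 := hu
      rw [this, zero_dotProduct]⟩
    map_add' := fun u v => by
      show (qp e (u.1.1 + v.1.1), adj (qi e) (u.1.2 + v.1.2)) = _
      rw [map_add, map_add]
      rfl
    map_smul' := fun c v => by
      show (qp e (c • v.1.1), adj (qi e) (c • v.1.2)) = _
      rw [map_smul, map_smul]
      rfl
    left_inv := fun v => by
      refine Subtype.ext (Prod.ext ?_ ?_)
      · show qi e (qp e v.1.1) = v.1.1
        rw [qi_qp, pr_self e v.2.1]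
      · show adj (qp e) (adj (qi e) v.1.2) = v.1.2
        refine dot_ext fun u => ?_
        rw [dot_adj, dot_adj, qi_qp]
        have h1 : (u - pr e u) ⬝ᵥ v.1.2 = 0 := by
          apply v.2.2
          rw [map_sub, e_pr]
          exact sub_self _
        rw [sub_dotProduct] at h1
        exact (sub_eq_zero.1 h1).symm
    right_inv := fun α => by
      refine Prod.ext ?_ ?_
      · show qp e (qi e α.1) = α.1
        rw [qp_qi]
      · show adj (qi e) (adj (qp e) α.2) = α.2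
        refine dot_ext fun u => ?_
        rw [dot_adj, dot_adj, qp_qi] }
  rw [LinearEquiv.finrank_eq f, Module.finrank_prod, Module.finrank_fin_fun]
  ring

/-! ### A third Lagrangian -/

/-- a self-orthogonal subspace is a Lagrangian -/
theorem isLag_of_iff {S : Submodule (ZMod 2) (Vv n)} (h : ∀ v, v ∈ S ↔ ∀ u ∈ S, form u v = 0) : IsLag S := by
  refine ⟨fun u hu v hv => (h v).1 hv u hu, ?_⟩
  have h1 : (bf n).orthogonal S = S := by
    ext v
    exact (h v).symm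
  have h2 := LinearMap.BilinForm.finrank_orthogonal (bf_nondeg (n := n)) (W := S)
  rw [h1, finrank_Vv] at h2
  have h3 := Submodule.finrank_le S
  rw [finrank_Vv] at h3
  omega

/-- the third Lagrangian -/
def s3 (i : Fin a) : Submodule (ZMod 2) (Vv n) where
  carrier := {v | (e v.1).1 i = 0 ∧ ∀ u, (e u).1 i = 0 → u ⬝ᵥ v.2 = 0}
  zero_mem' := ⟨by rw [Prod.fst_zero, map_zero]; rfl, fun u _ => by rw [Prod.snd_zero, dotProduct_zero]⟩
  add_mem' := by
    rintro u v ⟨h1, h2⟩ ⟨h3, h4⟩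
    exact ⟨by rw [Prod.fst_add, map_add, Prod.fst_add, Pi.add_apply, h1, h3, add_zero],
      fun w hw => by rw [Prod.snd_add, dotProduct_add, h2 w hw, h4 w hw, add_zero]⟩
  smul_mem' := by
    rintro c v ⟨h1, h2⟩
    exact ⟨by rw [Prod.smul_fst, map_smul, Prod.smul_fst, Pi.smul_apply, h1, smul_zero],
      fun w hw => by rw [Prod.smul_snd, dotProduct_smul, h2 w hw, smul_zero]⟩

theorem mem_s3 (i : Fin a) (v : Vv n) : v ∈ s3 e i ↔ (e v.1).1 i = 0 ∧ ∀ u, (e u).1 i = 0 → u ⬝ᵥ v.2 = 0 := Iff.rfl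

/-- double annihilator -/
theorem s3_dual (i : Fin a) {u : Fin n → ZMod 2} (hu : (e u).1 i ≠ 0) :
    ∃ w : Fin n → ZMod 2, (∀ u', (e u').1 i = 0 → u' ⬝ᵥ w = 0) ∧ u ⬝ᵥ w ≠ 0 := by
  have h1 : ¬ ∀ φ : Module.Dual (ZMod 2) K, φ ((e u).1 i) = 0 := fun h =>
    hu ((Module.forall_dual_apply_eq_zero_iff (ZMod 2) _).1 h)
  push Not at h1
  obtain ⟨φ, hφ⟩ := h1
  -- `φ` composed with the projection
  let P : (Fin n → ZMod 2) →ₗ[ZMod 2] (Fin 1 → ZMod 2) :=
    LinearMap.pi fun _ => φ ∘ₗ (LinearMap.proj i) ∘ₗ (LinearMap.fst (ZMod 2) (Fin a → K) (Fin b → ZMod 2)) ∘ₗ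
      e.toLinearMap
  have hP : ∀ u, P u = fun _ => φ ((e u).1 i) := fun u => rfl
  refine ⟨adj P (fun _ => 1), fun u' hu' => ?_, ?_⟩
  · rw [dot_adj, hP, hu', map_zero]
    simp [dotProduct]
  · rw [dot_adj, hP]
    simpa [dotProduct] using hφ

theorem s3_isLag (i : Fin a) : IsLag (s3 e i) := by
  refine isLag_of_iff fun v => ?_
  constructor
  · rintro ⟨h1, h2⟩ u ⟨h3, h4⟩
    rw [form, h2 _ h3, dotProduct_comm, h4 _ h1, add_zero]
  · intro h
    refine ⟨?_, fun u hu => ?_⟩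
    · by_contra hv
      obtain ⟨w, hw1, hw2⟩ := s3_dual e i hv
      have h1 := h (0, w) ⟨by
        show (e 0).1 i = 0
        rw [map_zero]
        rfl, hw1⟩
      apply hw2
      rw [dotProduct_comm]
      have h2 : (0 : Fin n → ZMod 2) ⬝ᵥ v.2 + w ⬝ᵥ v.1 = 0 := h1
      rwa [zero_dotProduct, zero_add] at h2
    · have h1 := h (u, 0) ⟨hu, fun u' _ => dotProduct_zero u'⟩
      have h2 : u ⬝ᵥ v.2 + (0 : Fin n → ZMod 2) ⬝ᵥ v.1 = 0 := h1
      rwa [zero_dotProduct, add_zero] at h2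

theorem s3_exists (ha : 2 ≤ a) {z : K} (hz : z ≠ 0) :
    ∃ S : Lag n, xl (Tz e z hz) • S = S ∧ S ≠ lagW n ∧ S ≠ lagC n := by
  set i : Fin a := ⟨0, by omega⟩ with hi
  set j : Fin a := ⟨1, by omega⟩ with hj
  have hij : i ≠ j := by
    rw [hi, hj]
    simp
  let S : Lag n := (⟨s3 e i, s3_isLag e i⟩ : {S : Submodule (ZMod 2) (Vv n) // IsLag S})
  have hS : S.1 = s3 e i := rfl
  refine ⟨S, Lag.ext ?_, ?_, ?_⟩
  · rw [coe_smul, hS]
    ext v
    rw [mem_act, xl_inv]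
    show xl (Tz e z hz).symm • v ∈ s3 e i ↔ v ∈ s3 e i
    rw [mem_s3, mem_s3, xl_fst, e_Tz_symm]
    have h1 : ((z⁻¹ • (e v.1).1, (e v.1).2) : (Fin a → K) × (Fin b → ZMod 2)).1 i = 0 ↔ (e v.1).1 i = 0 := by
      show z⁻¹ * (e v.1).1 i = 0 ↔ _
      rw [mul_eq_zero]
      exact or_iff_right (inv_ne_zero hz)
    rw [h1]
    refine and_congr_right fun _ => ?_
    constructor
    · intro h u hu
      have h2 := h ((Tz e z hz).symm u) (by
        rw [e_Tz_symm]
        show z⁻¹ * (e u).1 i = 0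
        rw [hu, mul_zero])
      rw [dot_xl, LinearEquiv.symm_symm, LinearEquiv.apply_symm_apply] at h2
      exact h2
    · intro h u hu
      rw [dot_xl, LinearEquiv.symm_symm]
      apply h
      rw [e_Tz]
      show z * (e u).1 i = 0
      rw [hu, mul_zero]
  · intro h
    have h1 : ((e.symm ((fun _ => 1 : Fin a → K), 0), 0) : Vv n) ∈ (lagW n).1 := (mem_lagW _).2 rfl
    rw [← h] at h1
    have h2 : (e (e.symm ((fun _ => 1 : Fin a → K), 0))).1 i = 0 := h1.1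
    rw [e.apply_symm_apply] at h2
    exact one_ne_zero h2
  · intro h
    have h1 : ((e.symm ((Pi.single j 1 : Fin a → K), 0), 0) : Vv n) ∈ s3 e i := by
      refine ⟨?_, fun u _ => dotProduct_zero u⟩
      show (e (e.symm ((Pi.single j 1 : Fin a → K), 0))).1 i = 0
      rw [e.apply_symm_apply]
      exact Pi.single_eq_of_ne hij 1
    have h2 : ((e.symm ((Pi.single j 1 : Fin a → K), 0), 0) : Vv n) ∈ (lagC n).1 := by
      rw [← h]
      exact h1
    rw [mem_lagC] at h2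
    have h3 : e (e.symm ((Pi.single j 1 : Fin a → K), 0)) = e 0 := congrArg e h2
    rw [e.apply_symm_apply, map_zero] at h3
    have h4 := congrFun (congrArg Prod.fst h3) j
    have h5 : (Pi.single j 1 : Fin a → K) j = 0 := h4
    rw [Pi.single_eq_same] at h5
    exact one_ne_zero h5

end main

/-- the element of odd type -/
theorem exists_XD {p n a b d : ℕ} [hp : Fact p.Prime] (hp2 : p ≠ 2) (hodd : Odd d) (hpd : p ∣ 2 ^ d - 1)
    (hd : ∀ j, p ∣ 2 ^ j - 1 → d ∣ j) (hn : n = a * d + b) (hb : b < d) (ha : 1 ≤ a) (hab : b ≠ 0 ∨ 2 ≤ a) :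
    ∃ (x : Sp n) (N N' V2 : Submodule (ZMod 2) (Vv n)), XD p x N N' V2 ∧ ¬ p ∣ Nat.card (Yg V2) ∧
      (V2 = ⊥ → ∃ S : Lag n, x • S = S ∧ S ≠ lagW n ∧ S ≠ lagC n) := by
  have hd0 : d ≠ 0 := by
    rintro rfl
    exact (by decide : ¬ Odd 0) hodd
  set K := GaloisField 2 d with hK
  have hfr : finrank (ZMod 2) K = d := GaloisField.finrank 2 hd0
  have : Finite K := inferInstance
  have := Fintype.ofFinite K
  have hcard : Nat.card K = 2 ^ d := GaloisField.card 2 d hd0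
  -- the element `z`
  obtain ⟨z, hz⟩ : ∃ z : Kˣ, orderOf z = p := by
    apply exists_prime_orderOf_dvd_card' p
    rw [Nat.card_units, hcard]
    exact hpd
  have hz0 : (z : K) ≠ 0 := z.ne_zero
  have hzp : (z : K) ^ p = 1 := by
    rw [← Units.val_pow_eq_pow_val, ← hz, pow_orderOf_eq_one, Units.val_one]
  have hz1 : (z : K) ≠ 1 := by
    intro h
    have h1 : z = 1 := Units.ext h
    rw [h1, orderOf_one] at hz
    exact hp.out.one_lt.ne hz
  have hz2 : (z : K) * z ≠ 1 := by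
    intro h
    have h1 : z ^ 2 = 1 := Units.ext (by rw [Units.val_pow_eq_pow_val, pow_two, h, Units.val_one])
    have h2 := orderOf_dvd_of_pow_eq_one h1
    rw [hz] at h2
    exact hp2 ((Nat.prime_dvd_prime_iff_eq hp.out Nat.prime_two).1 h2)
  have e : (Fin n → ZMod 2) ≃ₗ[ZMod 2] (Fin a → K) × (Fin b → ZMod 2) := by
    apply LinearEquiv.ofFinrankEq
    rw [Module.finrank_fin_fun, Module.finrank_prod, Module.finrank_fin_fun, Module.finrank_pi_fintype,
      Finset.sum_const, Finset.card_univ, Fintype.card_fin, smul_eq_mul, hfr, hn]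
  have D := s_XD e hz0 hz1 hzp ha (minpoly.aeval (ZMod 2) (z : K))
    (minpoly_inv_ne (by rw [hfr]; exact hodd) hz0 hz2) (minpoly_eval_one hz1)
  refine ⟨_, _, _, _, D, ?_, fun hV => ?_⟩
  · refine not_dvd_Yg hp2 D hd hodd ?_ (finrank_sV e) hn hb
    rw [finrank_sN, hfr]
  · have h1 := finrank_sV e
    rw [hV, finrank_bot] at h1
    have hb0 : b = 0 := by omega
    exact s3_exists e (hab.resolve_left fun h => h hb0) hz0

end Cfsg.Agent.H797.EP
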